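import Mathlib
import Cfsg.Agent.H2.CN
import Cfsg.Agent.BG.T10_6
import Cfsg.Agent.BG.T1_21
import Cfsg.Agent.BG.Base10FT
import Cfsg.Agent.Char.FrobKernel

/-! Minimal simple groups of odd order with nilpotent centralizers. -/

set_option autoImplicit false
set_option linter.unusedSectionVars false

namespace Cfsg.Agent.H2

open Cfsg Cfsg.Agent.BG Cfsg.Agent.BG.Amb Subgroup
open scoped Pointwise

universe u

variable {G : Type u} [Group G] [Finite G] {A B E H K L M N P Q : Subgroup G} {p q : ℕ}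

theorem piCoreOf_compl_eq_bot_of_fitting (hM : Group.IsSolvable M)
    (h : piCoreOf {p}ᶜ (fittingOf M) = ⊥) : piCoreOf {p}ᶜ M = ⊥ := by
  by_contra hne
  refine fittingOf_inf_ne_bot (piCoreOf_le {p}ᶜ M) (le_norm_piCoreOf _ _)
    (solvable_mono hM (piCoreOf_le _ _)) hne ?_
  rw [← piCoreOf_normal_eq (fittingOf_le M) (le_norm_fittingOf M) |>.trans (inf_comm _ _), h]

namespace CN

theorem sylow_piCoreOf [Fact p.Prime] (hG : IsMinSimpleOddOrder G) (h : IsCNGroup G) (hM : M ≠ ⊤)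
    (h1 : piCoreOf {p} M ≠ ⊥) : IsSylowOf p (piCoreOf {p} M) M := by
  by_cases h2 : piCoreOf {p}ᶜ (fittingOf M) = ⊥
  · have h3 := (plength1_iff Fact.out M).1 (mFT_proper_plength1 hG (p := p) Fact.out hM)
    rw [pPrimePCoreOf_eq_of_bot Fact.out (piCoreOf_compl_eq_bot_of_fitting (B10.sol hG hM) h2)] at h3
    exact sylow_mk (piCoreOf_le _ _) (piCoreOf_isPGroup M) h3
  · exact sylow_of_two h h1 h2

theorem fh_eq (hG : IsMinSimpleOddOrder G) (h : IsCNGroup G) (hM : M ≠ ⊤) :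
    fittingHallOf M = fittingOf M :=
  fittingHallOf_eq fun p hp h1 => by
    have := Fact.mk hp
    exact sylow_piCoreOf hG h hM h1

theorem fh_ne_bot (hG : IsMinSimpleOddOrder G) (h : IsCNGroup G) (hM : M ≠ ⊤) (h0 : M ≠ ⊥) :
    fittingHallOf M ≠ ⊥ := by
  rw [fh_eq hG h hM]
  exact fittingOf_ne_bot (B10.sol hG hM) h0

/-- Sylow subgroups are TI-subgroups. -/
theorem sylow_eq [Fact p.Prime] (hG : IsMinSimpleOddOrder G) (h : IsCNGroup G) (D : Subgroup G) :
    D ≠ ⊥ → ∀ P Q : Subgroup G, IsSylowOf p P ⊤ → IsSylowOf p Q ⊤ → D = P ⊓ Q → P = Q := by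
  induction D using WellFoundedGT.induction with
  | _ D ih =>
  intro h0 P Q hP hQ hD
  by_contra hne
  have hDp : IsPGroup p D := isPGroup_mono (sylow_isPGroup hP) (hD ▸ inf_le_left)
  have hN := B10.norm_ne_top_of_isPGroup hG hDp h0
  have hS := sylow_piCoreOf hG h hN
    (ne_bot_mono h0 (le_piCoreOf_of_isPGroup le_normalizer le_rfl hDp))
  obtain ⟨R, hR, hle⟩ := exists_sylow_ge (sylow_isPGroup hS) le_top
  have key : ∀ {X : Subgroup G}, IsSylowOf p X ⊤ → D < X → X = R := by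
    intro X hX hlt
    have h1 := lt_inf_normalizer_of_nilpotent (nilpotent_of_isPGroup (sylow_isPGroup hX)) hlt
    have h2 : X ⊓ 𝐍(D) ≤ R := (le_piCoreOf_of_hall hS inf_le_right
      (pi_mono (hall_pi hX) inf_le_left)).trans hle
    have h3 : D < X ⊓ R := h1.trans_le (le_inf inf_le_left h2)
    exact ih _ h3 (ne_bot_mono h0 h3.le) X R hX hR rfl
  have hDP : D < P := lt_of_le_of_ne (hD ▸ inf_le_left) fun e =>
    hne (hall_eq_hall_of_le hP hQ (by rw [← e, hD]; exact inf_le_right))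
  have hDQ : D < Q := lt_of_le_of_ne (hD ▸ inf_le_right) fun e =>
    hne (hall_eq_hall_of_le hQ hP (by rw [← e, hD]; exact inf_le_left)).symm
  exact hne ((key hP hDP).trans (key hQ hDQ).symm)

theorem MaxNil.same_of_inf (hG : IsMinSimpleOddOrder G) (h : IsCNGroup G) (hH : MaxNil H)
    (hK : MaxNil K) (hne : H ⊓ K ≠ ⊥) : K = H := by
  obtain ⟨p, hp, hd⟩ := Nat.exists_prime_and_dvd (n := Nat.card (H ⊓ K : Subgroup G))
    fun e => hne (card_eq_one.1 e)
  have := Fact.mk hp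
  obtain ⟨X, hX⟩ := Amb.exists_sylow p (H ⊓ K)
  have h1 := hd.trans (card_dvd_of_le (inf_le_left (a := H) (b := K)))
  have h2 := hd.trans (card_dvd_of_le (inf_le_right (a := H) (b := K)))
  have e := sylow_eq hG h _ (ne_bot_mono (sylow_ne_bot hX hd) (le_inf
    (nil_le_piCoreOf hH.1 ((hall_le hX).trans inf_le_left) (hall_pi hX))
    (nil_le_piCoreOf hK.1 ((hall_le hX).trans inf_le_right) (hall_pi hX)))) _ _
    (hH.sylow h h1) (hK.sylow h h2) rfl
  exact hH.eq_of_sylow h hK h1 (by rw [e]; exact piCoreOf_le _ _)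

theorem MaxNil.ti (hG : IsMinSimpleOddOrder G) (h : IsCNGroup G) (hH : MaxNil H) (g : G)
    (hg : MulAut.conj g • H ≠ H) : H ⊓ MulAut.conj g • H = ⊥ := by
  by_contra hne
  exact hg (hH.same_of_inf hG h (hH.conj g) hne)

theorem MaxNil.ne_top (hG : IsMinSimpleOddOrder G) (hH : MaxNil H) : H ≠ ⊤ :=
  B10.ne_top_of_nilpotent hG hH.1

theorem MaxNil.ne_bot (hG : IsMinSimpleOddOrder G) (hH : MaxNil H) : H ≠ ⊥ := by
  rintro rfl
  obtain ⟨x, -, hx⟩ := exists_mem_ne_one (B10.bot_ne_top' hG).symm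
  exact ne_bot_of_mem (mem_zpowers x) hx
    (hH.2 _ (nilpotent_of_comm (comm_of_cyclic inferInstance)) bot_le)

theorem MaxNil.lt_norm (hG : IsMinSimpleOddOrder G) (h : IsCNGroup G) (hH : MaxNil H) :
    H < 𝐍(H) := by
  refine lt_of_le_of_ne le_normalizer fun e => ?_
  obtain ⟨N, -, hN, hc⟩ := Char.frobenius_kernel H ⟨hH.ne_bot hG, hH.ne_top hG, fun g hg =>
    hH.ti hG h g fun e' => hg (by rw [e]; exact mem_normalizer_iff_conj.2 e')⟩
  have := hG.2.1
  rcases hN.eq_bot_or_eq_top with rfl | rfl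
  · exact hH.ne_top hG (by simpa using hc.sup_eq_top)
  · exact hH.ne_bot hG (by simpa using hc.disjoint)

theorem MaxNil.exists_compl (hG : IsMinSimpleOddOrder G) (h : IsCNGroup G) (hH : MaxNil H) :
    ∃ E : Subgroup G, IsPiHallOf {p | p ∣ Nat.card H}ᶜ E 𝐍(H) ∧ SdProd H E 𝐍(H) ∧ E ≠ ⊥ ∧
      Semiregular H E := by
  obtain ⟨E, h1, h2, h3, -⟩ := CN.exists_compl h (M := 𝐍(H))
    (by rw [hH.fittingHallOf_norm h]; exact hH.ne_bot hG)
  rw [hH.fittingHallOf_norm h] at h1 h2 h3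
  exact ⟨E, h1, h2, fun e => (hH.lt_norm hG h).ne (by simpa [e] using h2.1), h3⟩

theorem MaxNil.isCoatom (hG : IsMinSimpleOddOrder G) (h : IsCNGroup G) (hH : MaxNil H) :
    IsCoatom 𝐍(H) := by
  obtain ⟨M, hM, hle⟩ := B10.exists_max (B10.norm_ne_top hG (hH.ne_bot hG) (hH.ne_top hG))
  suffices M ≤ 𝐍(H) by rwa [le_antisymm hle this]
  have hHM : H ≤ M := le_normalizer.trans hle
  have hK0 := fh_ne_bot hG h hM.1 (B10.max_ne_bot hG hM)
  by_cases hc : (Nat.card H).Coprime (Nat.card (fittingHallOf M))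
  · exfalso
    obtain ⟨E, hE, hHE⟩ := exists_hall_ge (π := {p | p ∣ Nat.card (fittingHallOf M)}ᶜ)
      (B10.sol_max hG hM) (piNat_of_coprime hc.symm) hHM
    have hn := (hall_le hE).trans (le_norm_fittingHallOf M)
    have hs := semiregular_fittingHallOf h (hall_le hE) (pi_coprime (pi_self _) (hall_pi hE)).symm
    obtain rfl := hH.2 E (nil_of_semiregular h hn hs hK0) hHE
    have hsd := sdProd_of_hall (fittingHallOf_hall M) hE hn
    refine (hH.lt_norm hG h).ne ?_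
    calc E = E ⊔ (fittingHallOf M ⊓ 𝐍(E)) := by
          rw [inf_norm_eq_inf_cent hn hsd.2.1, semiregular_inf_cent hs le_rfl (hH.ne_bot hG),
            sup_bot_eq]
      _ = (E ⊔ fittingHallOf M) ⊓ 𝐍(E) := (sup_inf_assoc_of_le' le_normalizer hn).symm
      _ = 𝐍(E) := by rw [sup_comm, hsd.1, inf_eq_right.2 hle]
  · obtain ⟨p, hp, h1, h2⟩ := Nat.Prime.not_coprime_iff_dvd.1 hc
    have := Fact.mk hp
    have h3 := hall_of_le (hH.sylow h h1) ((piCoreOf_le _ _).trans hHM) le_top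
    refine le_trans ?_ (hH.norm_sylow_le h h1)
    rw [eq_piCoreOf_of_hall (sylow_of_dvd_fittingHallOf h2) h3]
    exact le_norm_piCoreOf _ _

theorem norm_fh (hG : IsMinSimpleOddOrder G) (h : IsCNGroup G) (hM : IsCoatom M) :
    𝐍(fittingHallOf M) = M :=
  B10.norm_eq_max_of_le hG hM (fh_ne_bot hG h hM.1 (B10.max_ne_bot hG hM)) (fittingHallOf_le M)
    (le_norm_fittingHallOf M)

theorem maxNil_fh (hG : IsMinSimpleOddOrder G) (h : IsCNGroup G) (hM : IsCoatom M) :
    MaxNil (fittingHallOf M) := by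
  obtain ⟨L, hL, hle⟩ := exists_maxNil (fittingHallOf_nilpotent M)
  have hK0 := fh_ne_bot hG h hM.1 (B10.max_ne_bot hG hM)
  have h1 : M ≤ 𝐍(L) := fun g hg => by
    refine mem_normalizer_iff_conj.2 (hL.same_of_inf hG h (hL.conj g) (ne_bot_mono hK0 (le_inf hle ?_)))
    rw [← conj_eq_of_mem_normalizer (le_norm_fittingHallOf M hg)]
    exact conj_mono g hle
  rwa [← B10.max_eq_max_of_le hM (hL.isCoatom hG h) h1, hL.fittingHallOf_norm h]

theorem exists_maxNil_mem (x : G) : ∃ H, MaxNil H ∧ x ∈ H := by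
  obtain ⟨H, hH, hle⟩ := exists_maxNil (A := zpowers x)
    (nilpotent_of_comm (comm_of_cyclic inferInstance))
  exact ⟨H, hH, hle (mem_zpowers x)⟩

end CN

end Cfsg.Agent.H2
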