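import Mathlib
import Cfsg.Agent.H2.Fratt

/-! Kegel's lemma, factorised normalisers, triple factorisations. -/

set_option autoImplicit false
set_option linter.unusedSectionVars false

namespace Cfsg.Agent.H2

open Cfsg Cfsg.Agent.BG Cfsg.Agent.BG.Amb Subgroup
open scoped Pointwise

variable {G : Type*} [Group G] [Finite G] {A B D H K L N P Q : Subgroup G}

theorem Prm.conj (h : Prm A B) (g : G) : Prm (MulAut.conj g • A) (MulAut.conj g • B) :=
  (h.fac.conj g).prm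

theorem prm_conj_conj (h : ∀ y : G, Prm A (MulAut.conj y • B)) (x y : G) :
    Prm (MulAut.conj x • A) (MulAut.conj y • B) := by
  have := (h (x⁻¹ * y)).conj x
  rwa [Amb.conj_conj, mul_inv_cancel_left] at this

theorem Fac.exists_conj_of_norm (h : Fac A B L) (hP : A ≤ 𝐍(P)) (hQ : B ≤ 𝐍(Q)) {x y : G}
    (hx : x ∈ L) (hy : y ∈ L) :
    ∃ g ∈ L, MulAut.conj g • P = MulAut.conj x • P ∧ MulAut.conj g • Q = MulAut.conj y • Q := by
  obtain ⟨a, ha, b, hb, e⟩ := h.2.2 (x⁻¹ * y) (L.mul_mem (L.inv_mem hx) hy)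
  refine ⟨x * a, L.mul_mem hx (h.1 ha),
    by rw [← Amb.conj_conj, conj_eq_of_mem_normalizer (hP ha)], ?_⟩
  have : x * a = y * b⁻¹ := by
    calc x * a = x * (a * b) * b⁻¹ := by group
      _ = y * b⁻¹ := by rw [← e]; group
  rw [this, ← Amb.conj_conj, conj_eq_of_mem_normalizer (hQ (B.inv_mem hb))]

/-- A maximal subgroup with a property closed under the construction `A ↦ ⟨A, A^b⟩` is
normalised by all conjugates of `B`. -/
theorem exists_norm_of_prm (p : Subgroup G → Prop)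
    (hp : ∀ (X Y : Subgroup G) (y : G), p X → (∀ z : G, Prm Y (MulAut.conj z • B)) →
      Y ≤ X ⊔ MulAut.conj y • B → p Y)
    (h : ∀ y : G, Prm A (MulAut.conj y • B)) (hA : p A) :
    ∃ X, A ≤ X ∧ p X ∧ normalClosure (B : Set G) ≤ 𝐍(X) := by
  obtain ⟨X, hAX, hX, hmax⟩ : ∃ X, A ≤ X ∧ (p X ∧ ∀ y : G, Prm X (MulAut.conj y • B)) ∧
      ∀ Y, (p Y ∧ ∀ y : G, Prm Y (MulAut.conj y • B)) → X ≤ Y → Y ≤ X := by
    obtain ⟨X, h1, h2⟩ := Finite.exists_le_maximal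
      (p := fun X : Subgroup G => p X ∧ ∀ y : G, Prm X (MulAut.conj y • B)) ⟨hA, h⟩
    exact ⟨X, h1, h2.1, fun Y hY hle => h2.2 hY hle⟩
  refine ⟨X, hAX, hX.1, normalClosure_le_of_conj_le fun y b hb => mem_normalizer_of_conj_le ?_⟩
  have h1 : ∀ z : G, Prm (X ⊔ MulAut.conj b • X) (MulAut.conj z • B) := fun z =>
    ((hX.2 z).symm.sup (prm_conj_conj hX.2 b z).symm).symm
  exact le_sup_right.trans (hmax _ ⟨hp X _ y hX.1 h1 (sup_le le_sup_left
    (conj_le_of_mem (mem_sup_right hb) le_sup_left)), h1⟩ le_sup_left)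

/-- Kegel's lemma. -/
theorem kegel (h : ∀ y : G, Prm A (MulAut.conj y • B)) (hne : A ⊔ B ≠ ⊤) :
    ∃ N : Subgroup G, N.Normal ∧ N ≠ ⊤ ∧ (A ≤ N ∨ B ≤ N) := by
  have key : ∀ (X : Subgroup G) (y z : G), (∀ z : G, Prm X (MulAut.conj z • B)) →
      X ⊔ MulAut.conj y • B = ⊤ → X ⊔ MulAut.conj z • B = ⊤ := by
    intro X y z hX e
    have h1 := (hX y).fac
    rw [e] at h1
    have := (h1.conj_conj (x := 1) (y := z * y⁻¹) trivial trivial).sup_eq
    rwa [conj_one, Amb.conj_conj, inv_mul_cancel_right] at this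
  obtain ⟨X, hAX, hX, hn⟩ := exists_norm_of_prm (fun X => ∀ y : G, X ⊔ MulAut.conj y • B ≠ ⊤)
    (fun X Y y hX hY hle z e => hX y (eq_top_iff.2 (by
      rw [← key Y z y hY e]; exact sup_le hle le_sup_right))) h
    (fun y e => hne (by simpa only [conj_one] using key A y 1 h e))
  by_cases ht : normalClosure (B : Set G) = ⊤
  · exact ⟨X, Core.normal_of_le_normalizer (ht ▸ hn), fun e => hX 1 (by rw [e, top_sup_eq]),
      Or.inl hAX⟩
  · exact ⟨_, inferInstance, ht, Or.inr le_normalClosure⟩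

/-- The normaliser of `⟨P, Q⟩` is factorised when `A` normalises `P` and `B` normalises `Q`. -/
theorem Fac.norm_sup (h : Fac A B ⊤) (hP : A ≤ 𝐍(P)) (hQ : B ≤ 𝐍(Q)) :
    Fac (A ⊓ 𝐍(P ⊔ Q)) (B ⊓ 𝐍(P ⊔ Q)) 𝐍(P ⊔ Q) := by
  refine ⟨inf_le_right, inf_le_right, fun g hg => ?_⟩
  obtain ⟨a, ha, b, hb, rfl⟩ := h.top g
  have : b ∈ 𝐍(P ⊔ Q) := by
    rw [← Subgroup.inv_mem_iff]
    refine mem_normalizer_of_conj_le ?_
    rw [← le_conj_iff]
    refine sup_le ?_ ?_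
    · rw [mem_normalizer_iff_conj, ← Amb.conj_conj, conj_eq_iff] at hg
      rw [hg, le_conj_iff, inv_inv, conj_eq_of_mem_normalizer (hP ha)]
      exact le_sup_left
    · rw [conj_sup, conj_eq_of_mem_normalizer (hQ hb)]
      exact le_sup_right
  exact ⟨a, ⟨ha, (Subgroup.mul_mem_cancel_right _ this).1 hg⟩, b, ⟨hb, this⟩, rfl⟩

/-- The centraliser of an element normalising both factors is factorised if `A ⊓ B = 1`. -/
theorem Fac.cent (h : Fac A B ⊤) (hd : A ⊓ B = ⊥) {e : G} (hA : e ∈ 𝐍(A)) (hB : e ∈ 𝐍(B)) :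
    Fac (A ⊓ 𝐂[e]) (B ⊓ 𝐂[e]) 𝐂[e] := by
  refine ⟨inf_le_right, inf_le_right, fun g hg => ?_⟩
  obtain ⟨a, ha, b, hb, rfl⟩ := h.top g
  rw [mem_cent1] at hg
  have h1 : a⁻¹ * (e * a * e⁻¹) ∈ A ⊓ B := mem_inf.2
    ⟨A.mul_mem (A.inv_mem ha) ((mem_normalizer_iff.1 hA a).1 ha), by
      have : a⁻¹ * (e * a * e⁻¹) = b * (e * b⁻¹ * e⁻¹) := by
        calc a⁻¹ * (e * a * e⁻¹) = a⁻¹ * (e * (a * b)) * b⁻¹ * e⁻¹ := by group
          _ = b * (e * b⁻¹ * e⁻¹) := by rw [← hg]; group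
      rw [this]
      exact B.mul_mem hb ((mem_normalizer_iff.1 hB _).1 (B.inv_mem hb))⟩
  rw [hd, mem_bot, inv_mul_eq_one, eq_mul_inv_iff_mul_eq] at h1
  refine ⟨a, ⟨ha, mem_cent1.2 h1⟩, b, ⟨hb, mem_cent1.2 ?_⟩, rfl⟩
  rw [← mul_assoc, ← h1, mul_assoc, mul_assoc] at hg
  exact mul_left_cancel hg

theorem Fac.hall_left {π : Set ℕ} (h : Fac A B L) (hA : IsPiSubgroup π A)
    (hB : IsPiSubgroup πᶜ B) : IsPiHallOf π A L :=
  hall_mk h.1 hA (h.symm.relIndex_eq ▸ piNat_of_dvd hB (Core.relIndex_dvd_card' _ _))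

/-- Normal subgroups of a product of two Hall subgroups are factorised. -/
theorem fac_inf_of_hall {π : Set ℕ} (hA : IsPiHallOf π A L) (hB : IsPiHallOf πᶜ B L) (hN : N ≤ L)
    (hn : L ≤ 𝐍(N)) : Fac (A ⊓ N) (B ⊓ N) N :=
  fac_of_coprime inf_le_right inf_le_right (piNat_coprime_of_disjoint
    (hall_index (hall_inf_normal hA hN hn)) (hall_index (hall_inf_normal hB hN hn))
    fun _ h h' => h' h)

theorem Fac.prm_of_hall {π ρ : Set ℕ} (h : Fac H K L) (hL : Group.IsSolvable L) (hA : H ≤ 𝐍(A))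
    (hB : K ≤ 𝐍(B)) (h1 : IsPiHallOf π A L) (h2 : IsPiHallOf ρ B L) : Prm A B := by
  obtain ⟨R, hR, hAR⟩ := exists_hall_ge (π := π ∪ ρ) hL
    (pi_of_subset (hall_pi h1) Set.subset_union_left) h1.1
  obtain ⟨g, hg, hBR⟩ := hall_conj_le hL hR (pi_of_subset (hall_pi h2) Set.subset_union_right) h2.1
  obtain ⟨x, hx, y, hy, h3, h4⟩ := h.exists_conj_le hg hAR hBR
  rw [conj_eq_of_mem_normalizer (hA hx)] at h3
  rw [conj_eq_of_mem_normalizer (hB hy)] at h4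
  have hR' := hall_conj_of_mem hR (h.1 hx)
  refine (fac_of_coprime h3 h4 (piNat_coprime_of_disjoint
    (piNat_inter (hall_index (hall_of_le h1 h3 hR'.1))
      (piNat_of_dvd (hall_pi hR') (Core.relIndex_dvd_card' _ _)))
    (hall_index (hall_of_le h2 h4 hR'.1)) ?_)).prm
  rintro r ⟨hr, hr' | hr'⟩
  · exact (hr hr').elim
  · exact fun h => h hr'

/-- Kegel's triple factorisation theorem (with a normal third factor). -/
theorem nilpotent_of_triple (h : Fac A B L) (hA : Fac A D L) (hB : Fac B D L) (hn : L ≤ 𝐍(D))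
    (h1 : Group.IsNilpotent A) (h2 : Group.IsNilpotent B) (h3 : Group.IsNilpotent D) :
    Group.IsNilpotent L := by
  refine nilpotent_of_sylow_normal fun p hp _ => ?_
  have := Fact.mk hp
  obtain ⟨hS, -⟩ := h.sylow_of_nilpotent h1 h2 p
  have hD := le_norm_piCoreOf_of {p} hn
  have hle : piCoreOf {p} D ≤ piCoreOf {p} A ⊔ piCoreOf {p} B :=
    normal_le_hall hS ((piCoreOf_le _ _).trans hA.2.1) (hS.1.trans hD) (piCoreOf_pi _ _)
  refine ⟨_, hS, h.sup_eq ▸ sup_le ?_ ?_⟩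
  · rw [← hall_eq_hall_of_le (hA.sylow_of_nilpotent h1 h3 p).1 hS (sup_le le_sup_left hle)]
    exact le_norm_sup (le_norm_piCoreOf _ _) (h.1.trans hD)
  · rw [← hall_eq_hall_of_le (hB.sylow_of_nilpotent h2 h3 p).1 hS (sup_le le_sup_right hle)]
    exact le_norm_sup (le_norm_piCoreOf _ _) (h.2.1.trans hD)

theorem hall_piCoreOf_of_hasNormalPComplement' {p : ℕ} [hp : Fact p.Prime]
    (h : HasNormalPComplement p K) : IsPiHallOf {p}ᶜ (piCoreOf {p}ᶜ K) K := by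
  obtain ⟨P, N, hN, hc⟩ := h
  have h1 : IsPiHallOf {p}ᶜ N ⊤ := hall_mk le_top ((pi_compl_singleton hp.out).2 (by
      rw [← hc.index_eq_card]; exact P.not_dvd_index)) (by
    rw [relIndex_top_right, compl_compl, hc.symm.index_eq_card]
    exact isPGroup_iff_pi.1 P.isPGroup')
  exact hall_piCoreOf_of_normal_hall (hall_map_subtype_iff.2 (isPiHall_iff.2 h1))
    (Core.le_normalizer_map_subtype_of_normal K N)

end Cfsg.Agent.H2
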