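import Mathlib
import Cfsg.Agent.H2.Kegel
import Cfsg.Agent.H2.Schmidt
import Cfsg.Agent.Char.Central

/-! The Kegel–Wielandt theorem: a finite product of two nilpotent subgroups is solvable. -/

set_option autoImplicit false
set_option linter.unusedSectionVars false

namespace Cfsg.Agent.H2

open Cfsg Cfsg.Agent.BG Cfsg.Agent.BG.Amb Subgroup
open scoped Pointwise

universe u

variable {G : Type u} [Group G] [Finite G]

/-- A minimal counterexample to Wielandt's theorem. -/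
structure KW (A B : Subgroup G) (π : Set ℕ) : Prop where
  simple : ∀ N : Subgroup G, N.Normal → N = ⊥ ∨ N = ⊤
  nilA : Group.IsNilpotent A
  nilB : Group.IsNilpotent B
  hallA : IsPiHallOf π A ⊤
  hallB : IsPiHallOf πᶜ B ⊤
  sol : ∀ L : Subgroup G, L ≠ ⊤ → ∀ A' B' : Subgroup G, Group.IsNilpotent A' →
    Group.IsNilpotent B' → (Nat.card A').Coprime (Nat.card B') → Fac A' B' L → Group.IsSolvable L
  twoA : ∀ p : ℕ, ∃ r : ℕ, r.Prime ∧ r ≠ p ∧ r ∣ Nat.card A
  twoB : ∀ p : ℕ, ∃ r : ℕ, r.Prime ∧ r ≠ p ∧ r ∣ Nat.card B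

namespace KW

variable {A B H L T X Y Z : Subgroup G} {π : Set ℕ} {p q r s : ℕ}

theorem symm (h : KW A B π) : KW B A πᶜ :=
  ⟨h.simple, h.nilB, h.nilA, h.hallB, by rw [compl_compl]; exact h.hallA, h.sol, h.twoB, h.twoA⟩

theorem conjB (h : KW A B π) (g : G) : KW A (MulAut.conj g • B) π :=
  ⟨h.simple, h.nilA, isNilpotent_conj.2 h.nilB, h.hallA, hall_conj_of_mem h.hallB trivial, h.sol,
    h.twoA, by rw [card_conj]; exact h.twoB⟩

theorem conjA (h : KW A B π) (g : G) : KW (MulAut.conj g • A) B π := by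
  have := (h.symm.conjB g).symm
  rwa [compl_compl] at this

theorem fac (h : KW A B π) : Fac A B ⊤ :=
  fac_of_coprime le_top le_top (piNat_coprime_of_disjoint (hall_index h.hallA) (hall_index h.hallB)
    fun _ h h' => h' h)

theorem disj (h : KW A B π) : A ⊓ B = ⊥ := hall_inf_hall h.hallA h.hallB

theorem sol' (h : KW A B π) (hL : L ≠ ⊤) (hf : Fac (A ⊓ L) (B ⊓ L) L) : Group.IsSolvable L :=
  h.sol L hL _ _ (nilpotent_mono h.nilA inf_le_left) (nilpotent_mono h.nilB inf_le_left)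
    (pi_coprime (pi_mono (hall_pi h.hallA) inf_le_left) (pi_mono (hall_pi h.hallB) inf_le_left)) hf

theorem norm_ne_top (h : KW A B π) (h1 : X ≠ ⊥) (h2 : X ≠ ⊤) : 𝐍(X) ≠ ⊤ := fun e =>
  (h.simple X (Core.normal_of_le_normalizer e.ge)).elim h1 h2

theorem memA (h : KW A B π) (hr : r.Prime) (hd : r ∣ Nat.card A) : r ∈ π := hall_pi h.hallA r hr hd

theorem memB (h : KW A B π) (hr : r.Prime) (hd : r ∣ Nat.card B) : r ∉ π := hall_pi h.hallB r hr hd

theorem sylA (h : KW A B π) [Fact r.Prime] (hr : r ∈ π) : IsSylowOf r (piCoreOf {r} A) ⊤ :=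
  sylow_of_hall (nil_piCoreOf_hall _ h.nilA) h.hallA hr

theorem sylB (h : KW A B π) [Fact r.Prime] (hr : r ∉ π) : IsSylowOf r (piCoreOf {r} B) ⊤ :=
  h.symm.sylA hr

theorem coreA_ne (h : KW A B π) [Fact r.Prime] (hd : r ∣ Nat.card A) : piCoreOf {r} A ≠ ⊥ :=
  sylow_ne_bot (nil_piCoreOf_hall _ h.nilA) hd

theorem ne_top_of_pi (h : KW A B π) (hX : IsPiSubgroup πᶜ X) : X ≠ ⊤ := by
  rintro rfl
  obtain ⟨r, hr, -, hd⟩ := h.twoA 0
  exact hX r hr (hd.trans (card_dvd_of_le le_top)) (h.memA hr hd)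

theorem ne_top_of_pgroup (h : KW A B π) [Fact p.Prime] (hX : IsPGroup p X) : X ≠ ⊤ := by
  by_cases hp : p ∈ π
  · exact h.symm.ne_top_of_pi (pi_of_isPGroup hX (by rwa [compl_compl]))
  · exact h.ne_top_of_pi (pi_of_isPGroup hX hp)

theorem exists_le_conjB (h : KW A B π) [Fact q.Prime] (hq : q ∉ π) (hY : IsPGroup q Y) :
    ∃ g : G, Y ≤ MulAut.conj g • B := by
  obtain ⟨g, -, hg⟩ := sylow_le_conj (h.sylB hq) hY le_top
  exact ⟨g, hg.trans (conj_mono g (piCoreOf_le _ _))⟩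

theorem core_le_cent (h : KW A B π) [Fact q.Prime] [Fact s.Prime] (hs : s ≠ q) (hY : IsPGroup q Y)
    (hle : Y ≤ B) : piCoreOf {s} B ≤ 𝐂(Y) :=
  nil_le_cent_of_pi h.nilB (piCoreOf_le _ _) hle (piCoreOf_pi _ _) (pi_of_isPGroup hY hs.symm)

theorem center_ne (h : KW A B π) [Fact q.Prime] (hd : q ∣ Nat.card B) :
    piCoreOf {q} B ⊓ 𝐂(B) ≠ ⊥ :=
  Core.inf_centralizer_ne_bot_of_nilpotent h.nilB (piCoreOf_le _ _) le_rfl (le_norm_piCoreOf _ _)
    (h.symm.coreA_ne hd)

theorem sup_sylow (h : KW A B π) [Fact r.Prime] [Fact s.Prime] (hr : r ∣ Nat.card A)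
    (hs : s ∣ Nat.card B) : piCoreOf {r} A ⊔ piCoreOf {s} B = ⊤ := by
  by_contra hne
  have hP := le_norm_piCoreOf {r} A
  have hQ := le_norm_piCoreOf {s} B
  have hf := h.fac.norm_sup hP hQ
  have hL := h.sol' (h.norm_ne_top (ne_bot_mono (h.coreA_ne hr) le_sup_left) hne) hf
  have h1 := hf.prm_of_hall hL (inf_le_left.trans hP) (inf_le_left.trans hQ)
    (hall_of_le (h.sylA (h.memA Fact.out hr)) (le_sup_left.trans le_normalizer) le_top)
    (hall_of_le (h.sylB (h.memB Fact.out hs)) (le_sup_right.trans le_normalizer) le_top)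
  obtain ⟨N, hN, hN', hle⟩ := kegel (fun y => by
    obtain ⟨g, -, e1, e2⟩ := h.fac.exists_conj_of_norm hP hQ (x := 1) (y := y) trivial trivial
    have := h1.conj g
    rwa [e1, e2, conj_one] at this) hne
  obtain rfl := (h.simple N hN).resolve_right hN'
  exact hle.elim (fun h' => h.coreA_ne hr (eq_bot_iff.2 h'))
    fun h' => h.symm.coreA_ne hs (eq_bot_iff.2 h')

theorem eq_bot_of_sylow_norm (h : KW A B π) [Fact r.Prime] [Fact q.Prime] (hr : r ∣ Nat.card A)
    (hq : q ∉ π) (hY : IsPGroup q Y) (hn : piCoreOf {r} A ≤ 𝐍(Y)) : Y = ⊥ := by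
  by_contra hne
  obtain ⟨g, hg⟩ := h.exists_le_conjB hq hY
  have h' := h.conjB g
  obtain ⟨s, hs, hsq, hd⟩ := h'.twoB q
  have := Fact.mk hs
  exact h.norm_ne_top hne (h.ne_top_of_pgroup hY) (eq_top_iff.2 (h'.sup_sylow hr hd ▸
    sup_le hn (le_norm_of_le_cent (h'.core_le_cent hsq hY hg))))

theorem sup_central (h : KW A B π) [Fact r.Prime] (hr : r ∣ Nat.card A) (hZ : Z ≤ B)
    (hn : B ≤ 𝐍(Z)) (hne : Z ≠ ⊥) : piCoreOf {r} A ⊔ Z = ⊤ := by
  by_contra hnt
  have hP := le_norm_piCoreOf {r} A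
  have hf := h.fac.norm_sup hP hn
  have hL := h.sol' (h.norm_ne_top (ne_bot_mono hne le_sup_right) hnt) hf
  have hPL : piCoreOf {r} A ≤ 𝐍(piCoreOf {r} A ⊔ Z) := le_sup_left.trans le_normalizer
  have hZL : Z ≤ 𝐍(piCoreOf {r} A ⊔ Z) := le_sup_right.trans le_normalizer
  generalize 𝐍(piCoreOf {r} A ⊔ Z) = L at hf hL hPL hZL
  have hF : IsPiSubgroup π (fittingOf L) := fun q hq hd => by
    by_contra hqπ
    have := Fact.mk hq
    exact piCoreOf_ne_bot_of_dvd_fittingOf hd (h.eq_bot_of_sylow_norm hr hqπ (piCoreOf_isPGroup L)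
      (hPL.trans (le_norm_piCoreOf _ _)))
  have hFA : fittingOf L ≤ A := (normal_le_hall (hf.hall_left (pi_mono (hall_pi h.hallA) inf_le_left)
    (pi_mono (hall_pi h.hallB) inf_le_left)) (fittingOf_le L)
    (inf_le_right.trans (le_norm_fittingOf L)) hF).trans inf_le_left
  have h1 : piCoreOf {r} A ⊓ 𝐂(A) ≤ piCoreOf {r} L := le_piCoreOf_of_le_fittingOf
    (le_trans (le_inf (inf_le_left.trans hPL) (inf_le_right.trans (cent_anti hFA)))
      (cent_fittingOf_le hL)) (pi_mono (piCoreOf_pi _ _) inf_le_left)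
  have h2 : A ≤ 𝐍(piCoreOf {r} L) := by
    rw [← (nil_dProd {r} h.nilA).1]
    exact sup_le (hPL.trans (le_norm_piCoreOf _ _)) (le_norm_of_le_cent (le_cent_symm
      (nil_le_cent_of_pi h.nilA ((piCoreOf_le_fittingOf L).trans hFA) (piCoreOf_le _ _)
        (piCoreOf_pi _ _) (piCoreOf_pi _ _))))
  have h3 := (h.fac.symm.mono le_rfl h2 le_top le_top).normalClosure_le hn
    (hZL.trans (le_norm_piCoreOf _ _))
  rw [(h.simple _ inferInstance).resolve_left (ne_bot_mono hne le_normalClosure)] at h3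
  exact h.norm_ne_top (ne_bot_mono (h.symm.center_ne hr) h1)
    (h.ne_top_of_pgroup (piCoreOf_isPGroup (p := r) L)) (eq_top_iff.2 h3)

theorem eq_bot_of_central_norm (h : KW A B π) (hZ : Z ≤ B ⊓ 𝐂(B)) (hne : Z ≠ ⊥) [Fact p.Prime]
    (hp : p ∈ π) (hX : IsPGroup p X) (hn : Z ≤ 𝐍(X)) : X = ⊥ := by
  by_contra hX0
  obtain ⟨g, hg⟩ := h.symm.exists_le_conjB (fun h' => h' hp) hX
  have h' := h.conjA g
  obtain ⟨r, hr, hrp, hd⟩ := h'.twoA p
  have := Fact.mk hr
  exact h.norm_ne_top hX0 (h.ne_top_of_pgroup hX) (eq_top_iff.2 (h'.sup_central hd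
    (hZ.trans inf_le_left) (le_norm_of_le_cent (le_cent_symm (hZ.trans inf_le_right))) hne ▸
    sup_le (le_norm_of_le_cent (h'.symm.core_le_cent hrp hX hg)) hn))

theorem cent_eq (h : KW A B π) (hZ : Z ≤ B ⊓ 𝐂(B)) (hne : Z ≠ ⊥) : 𝐂(Z) = B := by
  refine hall_eq_of_le h.hallB (le_cent_symm (hZ.trans inf_le_right)) le_top fun p hp hd hπ => ?_
  have := Fact.mk hp
  obtain ⟨P, hP⟩ := exists_sylow p 𝐂(Z)
  exact sylow_ne_bot hP hd (h.eq_bot_of_central_norm hZ hne hπ (sylow_isPGroup hP)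
    (le_norm_of_le_cent (le_cent_symm hP.1)))

theorem conj_eq_of_le (h : KW A B π) [Fact q.Prime] (hZ : Z ≤ B ⊓ 𝐂(B)) (hne : Z ≠ ⊥)
    (hq : IsPGroup q Z) {g : G} (hg : Z ≤ MulAut.conj g • B) : MulAut.conj g • B = B := by
  have h' := h.conjB g
  generalize MulAut.conj g • B = B' at h' hg
  obtain ⟨s, hs, hsq, hd⟩ := h'.twoB q
  have := Fact.mk hs
  have h1 : piCoreOf {s} B' ≤ B := h.cent_eq hZ hne ▸ h'.core_le_cent hsq hq hg
  have h2 : piCoreOf {s} B' = piCoreOf {s} B :=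
    nil_hall_eq h.nilB (hall_of_le (h'.sylB (h'.memB hs hd)) h1 le_top)
  refine (hall_eq_hall_of_le h.hallB h'.hallB ?_).symm
  rw [← (nil_dProd {s} h.nilB).1]
  refine sup_le (h2 ▸ piCoreOf_le _ _) ?_
  rw [← h'.cent_eq (inf_le_inf_right _ (piCoreOf_le {s} B')) (h'.center_ne hd)]
  exact (nil_dProd {s} h.nilB).2.2.trans (cent_anti (h2 ▸ inf_le_left))

theorem le_of_norm (h : KW A B π) [Fact q.Prime] (hZ : Z ≤ B ⊓ 𝐂(B)) (hne : Z ≠ ⊥)
    (hq : IsPGroup q Z) [Fact p.Prime] (hT : IsPGroup p T) (hn : Z ≤ 𝐍(T)) : T ≤ B := by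
  by_cases hp : p ∈ π
  · rw [h.eq_bot_of_central_norm hZ hne hp hT hn]; exact bot_le
  by_cases hpq : q = p
  · subst hpq
    obtain ⟨g, hg⟩ := h.exists_le_conjB hp (isPGroup_of_pi (pi_sup (isPGroup_iff_pi.1 hT)
      (isPGroup_iff_pi.1 hq) hn))
    rw [h.conj_eq_of_le hZ hne hq (le_sup_right.trans hg)] at hg
    exact le_sup_left.trans hg
  obtain ⟨g, hg⟩ := h.exists_le_conjB hp hT
  have h' := h.conjB g
  have h1 := h'.core_le_cent hpq hT hg
  obtain ⟨n, hn', hle⟩ := sylow_le_conj (hall_of_le (h'.sylB (mem_of_pi_of_isPGroup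
    (hall_pi h.hallB) hq hne (hZ.trans inf_le_left))) (le_norm_of_le_cent h1) le_top) hq hn
  rw [← h.cent_eq hZ hne]
  exact le_cent_symm (hle.trans (conj_le_of_mem_normalizer (norm_le_norm_cent T hn') h1))

theorem le_norm_of_solvable (h : KW A B π) [Fact q.Prime] (hZ : Z ≤ B ⊓ 𝐂(B)) (hne : Z ≠ ⊥)
    (hq : IsPGroup q Z) (hH : Group.IsSolvable H) (hle : Z ≤ H) : H ≤ 𝐍(B) := by
  have hF : fittingOf H ≤ B := fittingOf_le_of_forall_piCoreOf fun p hp _ => by
    have := Fact.mk hp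
    exact h.le_of_norm hZ hne hq (piCoreOf_isPGroup H) (hle.trans (le_norm_piCoreOf _ _))
  have h1 : Z ≤ fittingOf H :=
    le_trans (le_inf hle (hZ.trans (inf_le_right.trans (cent_anti hF)))) (cent_fittingOf_le hH)
  intro x hx
  refine mem_normalizer_iff_conj.2 (h.conj_eq_of_le hZ hne hq (le_trans ?_ (conj_mono x hF)))
  rwa [conj_eq_of_mem_normalizer (le_norm_fittingOf H hx)]

theorem cent1_ne_top (h : KW A B π) {x : G} (hx : x ≠ 1) : 𝐂[x] ≠ ⊤ := by
  intro e
  have h1 : (zpowers x).Normal := Core.normal_of_le_normalizer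
    (le_norm_of_le_cent (by rw [cent_zpowers, e]))
  have h2 := (h.simple _ h1).resolve_left (zpowers_ne_bot.2 hx)
  obtain ⟨r, hr, -, hd⟩ := h.twoA 0
  have := Fact.mk hr
  have h3 : (piCoreOf {r} A).Normal := Core.normal_of_le_normalizer (le_norm_of_le_cent
    (le_cent_of_comm (A := zpowers x) inferInstance h2.ge (h2 ▸ le_top)))
  exact (h.simple _ h3).elim (h.coreA_ne hd) (h.ne_top_of_pgroup (piCoreOf_isPGroup (p := r) A))

theorem cent_le_norm_of_mem (h : KW A B π) {x : G} (hx : x ≠ 1) (hB : x ∈ B) (hA : x ∈ 𝐍(A)) :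
    𝐂[x] ≤ 𝐍(B) := by
  obtain ⟨q, hq, -, hd⟩ := h.twoB 0
  have := Fact.mk hq
  exact h.le_norm_of_solvable (inf_le_inf_right _ (piCoreOf_le {q} B)) (h.center_ne hd)
    (isPGroup_mono (piCoreOf_isPGroup (p := q) B) inf_le_left)
    (h.sol' (h.cent1_ne_top hx) (h.fac.cent h.disj hA (le_normalizer hB)))
    (inf_le_right.trans (cent_le_cent1 hB))

theorem norm_solvable (h : KW A B π) : Group.IsSolvable 𝐍(B) := by
  obtain ⟨q, hq, -, hd⟩ := h.twoB 0
  have := Fact.mk hq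
  exact h.sol _ (h.norm_ne_top (ne_bot_mono (h.symm.coreA_ne hd) (piCoreOf_le _ _))
    (h.ne_top_of_pi (hall_pi h.hallB))) _ _ (nilpotent_mono h.nilA inf_le_left) h.nilB
    (pi_coprime (pi_mono (hall_pi h.hallA) inf_le_left) (hall_pi h.hallB))
    (h.fac.inf_left le_normalizer le_top)

theorem cent_le_norm (h : KW A B π) {x : G} (hx : x ≠ 1) (hB : x ∈ B) [Fact p.Prime]
    (hp : IsPGroup p (zpowers x)) : 𝐂[x] ≤ 𝐍(B) := by
  by_cases hπ : IsPiSubgroup πᶜ (𝐂[x] ⊓ 𝐍(B))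
  swap
  · obtain ⟨t, ht, hd, htπ⟩ := not_pi_iff.1 hπ
    rw [Set.notMem_compl_iff] at htπ
    have := Fact.mk ht
    obtain ⟨T, hT⟩ := exists_sylow t (𝐂[x] ⊓ 𝐍(B))
    obtain ⟨m, hm, hle⟩ := hall_conj_le h.norm_solvable
      ((h.fac.inf_left le_normalizer le_top).hall_left (pi_mono (hall_pi h.hallA) inf_le_left)
        (hall_pi h.hallB)) (pi_of_isPGroup (sylow_isPGroup hT) htπ) (hT.1.trans inf_le_right)
    obtain ⟨f, hf, hf1⟩ := exists_mem_ne_one (conj_ne_bot_iff (g := m).2 (sylow_ne_bot hT hd))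
    have h1 : f ∈ 𝐂[m * x * m⁻¹] := by
      rw [← conj_centralizer_singleton]
      exact conj_mono m (hT.1.trans inf_le_left) hf
    have h2 := h.symm.cent_le_norm_of_mem hf1 (hle hf).1 (hle hf).2 (mem_cent1_comm.1 h1)
    have h3 := h.cent_le_norm_of_mem (by simpa using hx) ((mem_normalizer_iff.1 hm x).1 hB) h2
    rwa [← conj_centralizer_singleton, conj_le_iff_of_mem_normalizer (le_normalizer hm)] at h3
  have hKB : 𝐂[x] ⊓ 𝐍(B) ≤ B :=
    le_normal_hall (hall_of_le h.hallB le_normalizer le_top) le_rfl inf_le_right hπ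
  obtain ⟨r, hr, hrp, hd⟩ := h.twoB p
  have := Fact.mk hr
  have hR : piCoreOf {r} B ≤ 𝐂[x] := cent_zpowers x ▸ h.core_le_cent hrp hp (zpowers_le.2 hB)
  generalize 𝐂[x] = K at hKB hR
  have hZ := inf_le_inf_right 𝐂(B) (piCoreOf_le {r} B)
  have hne := h.center_ne hd
  have hZr := isPGroup_mono (piCoreOf_isPGroup (p := r) B) (inf_le_left (b := 𝐂(B)))
  have hZK : piCoreOf {r} B ⊓ 𝐂(B) ≤ K := inf_le_left.trans hR
  have hS : IsSylowOf r (piCoreOf {r} B) K := hall_of_le (h.sylB (h.memB hr hd)) hR le_top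
  generalize piCoreOf {r} B ⊓ 𝐂(B) = Z at hZ hne hZr hZK
  obtain ⟨P, hP⟩ := exists_sylow_of_isSylowOf hS
  have hPB : ∀ y ∈ (P : Subgroup K), (y : G) ∈ B := fun y hy =>
    piCoreOf_le {r} B (hP ▸ mem_map_of_mem K.subtype hy)
  have hnpc : HasNormalPComplement r K := by
    refine Transfer.hasNormalPComplement_of_control P (V := B.subgroupOf K) hPB
      (fun y hy g hg => ?_) (by
        have := Core.nilpotent_subgroupOf (K := K) h.nilB
        exact Transfer.hasNormalPComplement_of_isNilpotent)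
    have h1 : Z ≤ K ⊓ 𝐂[((g * y * g⁻¹ : K) : G)] :=
      le_inf hZK (hZ.trans (inf_le_right.trans (cent_le_cent1 (hPB _ hg))))
    have h2 : MulAut.conj (g : G) • Z ≤ K ⊓ 𝐂[((g * y * g⁻¹ : K) : G)] := by
      refine le_inf (conj_le_of_mem g.2 hZK) ?_
      rw [coe_mul, coe_mul, coe_inv, ← conj_centralizer_singleton]
      exact conj_mono _ (hZ.trans (inf_le_right.trans (cent_le_cent1 (hPB _ hy))))
    obtain ⟨S, hS, hZS⟩ := exists_sylow_ge hZr h1
    obtain ⟨c, hc, hle⟩ := sylow_conj_le hS (isPGroup_conj.2 hZr) h2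
    have h3 := hle.trans (h.le_of_norm hZ hne hZr (sylow_isPGroup hS) (le_norm_of_le hZS))
    rw [Amb.conj_conj, conj_le_iff] at h3
    have h4 := mem_normalizer_iff_conj.2 (h.conj_eq_of_le hZ hne hZr h3)
    refine ⟨⟨c, hc.1⟩ * g, hKB ⟨K.mul_mem hc.1 g.2, (Subgroup.inv_mem_iff _).1 h4⟩,
      Subtype.ext ?_⟩
    have h5 := mem_cent1.1 hc.2
    simp only [coe_mul, coe_inv] at h5 ⊢
    calc c * g * y * (c * g)⁻¹ = c * (g * y * (g : G)⁻¹) * c⁻¹ := by group
      _ = _ := by rw [h5]; group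
  have hN := hall_piCoreOf_of_hasNormalPComplement' hnpc
  rw [← hall_sup_hall hS hN]
  refine (sup_le (piCoreOf_le _ _) (le_of_forall_exists_sylow_le fun t ht _ => ?_)).trans
    le_normalizer
  have := Fact.mk ht
  obtain ⟨T, hT, hn⟩ := coprime_sylow_exists t (hZK.trans (le_norm_piCoreOf {r}ᶜ K))
    (pi_coprime (isPGroup_iff_pi.1 hZr) (piCoreOf_pi _ _)).symm (Or.inl (solvable_of_isPGroup hZr))
  exact ⟨T, hT, h.le_of_norm hZ hne hZr (sylow_isPGroup hT) hn⟩

theorem inf_conj_eq_bot (h : KW A B π) {g : G} (hg : g ∉ 𝐍(B)) : B ⊓ MulAut.conj g • B = ⊥ := by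
  by_contra hne
  obtain ⟨x, hx, hp⟩ := Core.exists_mem_prime_orderOf hne
  have := Fact.mk hp
  have hxp : IsPGroup (orderOf x) (zpowers x) := IsPGroup.of_card (n := 1) (by simp)
  have hx1 : x ≠ 1 := by
    rintro rfl
    rw [orderOf_one] at hp
    exact Nat.not_prime_one hp
  have h' := h.conjB g
  obtain ⟨r, hr, hrp, hd⟩ := h'.twoB (orderOf x)
  have := Fact.mk hr
  have h1 : piCoreOf {r} (MulAut.conj g • B) ≤ B := le_normal_hall
    (hall_of_le h.hallB le_normalizer le_top) le_rfl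
    ((cent_zpowers x ▸ h'.core_le_cent hrp hxp (zpowers_le.2 hx.2)).trans
      (h.cent_le_norm hx1 hx.1 hxp)) (pi_of_isPGroup (piCoreOf_isPGroup _) (h'.memB hr hd))
  have h2 := h'.conj_eq_of_le (g := g⁻¹) (inf_le_inf_right _ (piCoreOf_le {r} _)) (h'.center_ne hd)
    (isPGroup_mono (piCoreOf_isPGroup (p := r) _) inf_le_left)
    (by rw [conj_inv_conj]; exact inf_le_left.trans h1)
  rw [conj_inv_conj] at h2
  exact hg (mem_normalizer_iff_conj.2 h2.symm)

theorem card_le (h : KW A B π) : Nat.card B ≤ Nat.card A := by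
  obtain ⟨q, hq, -, hd⟩ := h.twoB 0
  have := Fact.mk hq
  obtain ⟨g, hg⟩ : ∃ g, g ∉ 𝐍(B) := by
    by_contra hc
    push Not at hc
    exact h.norm_ne_top (ne_bot_mono (h.symm.coreA_ne hd) (piCoreOf_le _ _))
      (h.ne_top_of_pi (hall_pi h.hallB)) (eq_top_iff.2 fun g _ => hc g)
  have h1 := Core.card_mul_card_le (H := B) (K := MulAut.conj g • B) le_top le_top
  rw [h.inf_conj_eq_bot hg, card_bot, mul_one, card_conj, ← card_hall_mul_card_hall h.hallA h.hallB]
    at h1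
  exact Nat.le_of_mul_le_mul_right h1 Nat.card_pos

theorem false (h : KW A B π) : False := by
  obtain ⟨q, hq, -, hd⟩ := h.twoB 0
  exact h.memB hq hd (h.memA hq (le_antisymm h.card_le h.symm.card_le ▸ hd))

end KW

theorem solvable_of_fac_subgroupOf {A B L : Subgroup G} (hf : Fac A B L)
    (h : ∀ A' B' : Subgroup L, Nat.card A' = Nat.card A → Nat.card B' = Nat.card B →
      Group.IsNilpotent A' → Group.IsNilpotent B' → Fac A' B' ⊤ → Group.IsSolvable L)
    (hA : Group.IsNilpotent A) (hB : Group.IsNilpotent B) : Group.IsSolvable L :=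
  h _ _ (Core.card_subgroupOf_of_le hf.1) (Core.card_subgroupOf_of_le hf.2.1)
    (Core.nilpotent_subgroupOf hA) (Core.nilpotent_subgroupOf hB) hf.subgroupOf

/-- A simple group `AB` with `A` a `p`-group and `B` nilpotent is solvable (Burnside). -/
theorem solvable_of_simple_of_fac [IsSimpleGroup G] {A B : Subgroup G} (hf : Fac A B ⊤)
    (hA : Group.IsNilpotent A) (hB : Group.IsNilpotent B) {p : ℕ}
    (h : ∀ r : ℕ, r.Prime → r ∣ Nat.card A → r = p) : Group.IsSolvable G := by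
  by_cases hb : B = ⊥
  · have : A = ⊤ := by rw [← hf.sup_eq, hb, sup_bot_eq]
    subst this
    exact Core.solvable_of_mulEquiv topEquiv inferInstance
  obtain ⟨z, hz, hz1⟩ := exists_mem_ne_one
    (Core.inf_centralizer_ne_bot_of_nilpotent hB le_rfl le_rfl le_normalizer hb)
  have h1 : IsPiNat {p} (𝐂[z]).index := by
    refine piNat_of_dvd (n := Nat.card A) h ((index_dvd_of_le (le_cent1_iff.2 hz.2)).trans ?_)
    rw [← relIndex_top_right, ← hf.relIndex_eq]
    exact Core.relIndex_dvd_card' _ _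
  obtain ⟨q, k, hq, hk⟩ : ∃ q k : ℕ, q.Prime ∧ (𝐂[z]).index = q ^ k := by
    by_cases hp : p.Prime
    · obtain ⟨k, hk⟩ := (piNat_singleton_iff hp index_ne_zero_of_finite).1 h1
      exact ⟨p, k, hp, hk⟩
    · refine ⟨2, 0, Nat.prime_two, Nat.eq_one_iff_not_exists_prime_dvd.2 fun r hr hd => hp ?_⟩
      exact h1 r hr hd ▸ hr
  have := Char.isMulCommutative_of_center_eq_top (Char.comm_of_simple_of_class_prime_pow hz1 hq hk)
  exact Core.solvable_of_isMulCommutative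

theorem wielandt_top (G : Type u) [Group G] [Finite G] : ∀ A B : Subgroup G, Group.IsNilpotent A →
    Group.IsNilpotent B → (Nat.card A).Coprime (Nat.card B) → Fac A B ⊤ → Group.IsSolvable G := by
  refine Core.induction_on_card (P := fun G _ _ => ∀ A B : Subgroup G, Group.IsNilpotent A →
    Group.IsNilpotent B → (Nat.card A).Coprime (Nat.card B) → Fac A B ⊤ → Group.IsSolvable G) ?_ G
  intro G _ _ ih A B hA hB hc hf
  have hsol : ∀ L : Subgroup G, L ≠ ⊤ → ∀ A' B' : Subgroup G, Group.IsNilpotent A' →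
      Group.IsNilpotent B' → (Nat.card A').Coprime (Nat.card B') → Fac A' B' L →
      Group.IsSolvable L := fun L hL A' B' h1 h2 h3 h4 =>
    solvable_of_fac_subgroupOf h4 (fun _ _ e1 e2 h5 h6 h7 =>
      ih L (Core.card_lt_of_ne_top L hL) _ _ h5 h6 (by rwa [e1, e2]) h7) h1 h2
  have hA' : IsPiHallOf {p | p ∣ Nat.card A} A ⊤ := hf.hall_left (pi_self A) (piNat_of_coprime hc)
  have hB' : IsPiHallOf {p | p ∣ Nat.card A}ᶜ B ⊤ :=
    hf.symm.hall_left (piNat_of_coprime hc) (piNat_compl_compl.2 (pi_self A))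
  by_cases hs : ∀ N : Subgroup G, N.Normal → N = ⊥ ∨ N = ⊤
  swap
  · push Not at hs
    obtain ⟨N, hN, h1, h2⟩ := hs
    have hsurj := QuotientGroup.mk'_surjective N
    exact solvable_of_normal_quotient N (hsol N h2 _ _ (nilpotent_mono hA inf_le_left)
      (nilpotent_mono hB inf_le_left) (Core.coprime_of_le_left
        (Core.coprime_of_le_right hc inf_le_left) inf_le_left)
      (fac_inf_of_hall hA' hB' le_top le_norm_of_normal))
      (ih _ (Core.card_quotient_lt N h1) _ _ (Core.nilpotent_map hA _) (Core.nilpotent_map hB _)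
        (Nat.Coprime.coprime_dvd_left (Core.card_map_dvd _ _)
          (Nat.Coprime.coprime_dvd_right (Core.card_map_dvd _ _) hc)) (hf.map_top hsurj))
  rcases subsingleton_or_nontrivial G with _ | _
  · infer_instance
  have : IsSimpleGroup G := ⟨hs⟩
  by_contra hns
  refine KW.false (π := {p | p ∣ Nat.card A}) ⟨hs, hA, hB, hA', hB', hsol, fun p => ?_, fun p => ?_⟩
  · by_contra hp
    push Not at hp
    exact hns (solvable_of_simple_of_fac hf hA hB (p := p) fun r hr hd => by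
      by_contra hne; exact hp r hr hne hd)
  · by_contra hp
    push Not at hp
    exact hns (solvable_of_simple_of_fac hf.symm hB hA (p := p) fun r hr hd => by
      by_contra hne; exact hp r hr hne hd)

theorem kegel_wielandt_top (G : Type u) [Group G] [Finite G] : ∀ A B : Subgroup G,
    Group.IsNilpotent A → Group.IsNilpotent B → Fac A B ⊤ → Group.IsSolvable G := by
  refine Core.induction_on_card (P := fun G _ _ => ∀ A B : Subgroup G, Group.IsNilpotent A →
    Group.IsNilpotent B → Fac A B ⊤ → Group.IsSolvable G) ?_ G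
  intro G _ _ ih A B hA hB hf
  by_contra hns
  have hq : ∀ (N : Subgroup G) [N.Normal], N ≠ ⊥ → Group.IsSolvable (G ⧸ N) := fun N _ hN =>
    ih _ (Core.card_quotient_lt N hN) _ _ (Core.nilpotent_map hA _) (Core.nilpotent_map hB _)
      (hf.map_top (QuotientGroup.mk'_surjective N))
  have hsol : ∀ (N : Subgroup G) [N.Normal], Group.IsSolvable N → N = ⊥ := fun N _ hN => by
    by_contra hne
    exact hns (solvable_of_normal_quotient N hN (hq N hne))
  refine hns (wielandt_top G A B hA hB (Nat.coprime_of_dvd fun p hp h1 h2 => ?_) hf)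
  have := Fact.mk hp
  obtain ⟨hS, hPQ⟩ := hf.sylow_of_nilpotent hA hB p
  have hconj : ∀ y : G, ∃ g : G, MulAut.conj g • piCoreOf {p} A = piCoreOf {p} A ∧
      MulAut.conj g • piCoreOf {p} B = MulAut.conj y • piCoreOf {p} B := fun y => by
    obtain ⟨g, -, e1, e2⟩ := hf.exists_conj_of_norm (le_norm_piCoreOf {p} A)
      (le_norm_piCoreOf {p} B) (x := 1) (y := y) trivial trivial
    exact ⟨g, by rw [e1, conj_one], e2⟩
  obtain ⟨X, hPX, hX, hn⟩ := exists_norm_of_prm (A := piCoreOf {p} A) (B := piCoreOf {p} B)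
    (fun X => IsPiSubgroup {p} X ∧ ∀ y : G, IsPiSubgroup {p} (X ⊔ MulAut.conj y • piCoreOf {p} B))
    (fun X Y y hX hY hle => ⟨pi_mono (hX.2 y) hle, fun z => (hY z).fac.pi (pi_mono (hX.2 y) hle)
      (isPiSubgroup_conj.2 (piCoreOf_pi _ _))⟩)
    (fun y => by
      obtain ⟨g, e1, e2⟩ := hconj y
      have := hPQ.prm.conj g
      rwa [e1, e2] at this)
    ⟨piCoreOf_pi _ _, fun y => by
      obtain ⟨g, e1, e2⟩ := hconj y
      have := (isPiSubgroup_conj (g := g)).2 (hall_pi hS)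
      rwa [conj_sup, e1, e2] at this⟩
  set M := normalClosure ((piCoreOf {p} B : Subgroup G) : Set G)
  have hM : M ≠ ⊥ := ne_bot_mono (sylow_ne_bot (nil_piCoreOf_hall _ hB) h2) le_normalClosure
  have h3 : (piCoreOf {p} M).Normal :=
    Core.normal_of_le_normalizer (le_norm_piCoreOf_of _ le_norm_of_normal)
  have h4 : M ⊓ X = ⊥ := eq_bot_iff.2 (hsol _ (solvable_of_isPGroup (piCoreOf_isPGroup (p := p) M)) ▸
    le_piCoreOf inf_le_left (le_norm_inf le_normalizer hn) (pi_mono hX.1 inf_le_right))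
  have h5 : 𝐂(M) ≠ ⊥ := ne_bot_mono (ne_bot_mono (sylow_ne_bot (nil_piCoreOf_hall _ hA) h1) hPX)
    (le_cent_symm (le_cent_of_disjoint hn le_norm_of_normal h4))
  have h6 : M ⊓ 𝐂(M) = ⊥ :=
    hsol _ (solvable_of_comm (comm_of_le_cent (inf_le_right.trans (cent_anti inf_le_left))))
  have := hq _ h5
  exact hM (hsol M (Core.solvable_of_mulEquiv (equivMapMk' h6).symm inferInstance))

/-- The Kegel–Wielandt theorem. -/
theorem kegel_wielandt {A B L : Subgroup G} (hf : Fac A B L) (hA : Group.IsNilpotent A)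
    (hB : Group.IsNilpotent B) : Group.IsSolvable L :=
  solvable_of_fac_subgroupOf hf (fun _ _ _ _ h1 h2 h3 => kegel_wielandt_top L _ _ h1 h2 h3) hA hB

end Cfsg.Agent.H2
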