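import Mathlib
import Cfsg.Agent.H2.Primitive

/-! Faithful primitive actions and core-free maximal subgroups. -/

set_option autoImplicit false
set_option linter.unusedSectionVars false

namespace Cfsg.Agent.H2

open Cfsg Cfsg.Agent.BG Cfsg.Agent.BG.Amb Subgroup
open scoped Pointwise

variable {G : Type*} [Group G] {Ω : Type*} [MulAction G Ω]

theorem normalCore_stabilizer [FaithfulSMul G Ω] [MulAction.IsPretransitive G Ω] (ω : Ω) :
    (MulAction.stabilizer G ω).normalCore = ⊥ := by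
  rw [eq_bot_iff]
  intro x hx
  refine mem_bot.2 (eq_of_smul_eq_smul (α := Ω) fun a => ?_)
  obtain ⟨g, rfl⟩ := MulAction.exists_smul_eq G ω a
  have : (g⁻¹ * x * g⁻¹⁻¹) • ω = ω := hx g⁻¹
  rw [inv_inv, mul_smul, mul_smul, inv_smul_eq_iff] at this
  rw [this, one_smul]

theorem nontrivial_of_faithful [FaithfulSMul G Ω] {M : Subgroup G} (hM : M ≠ ⊥) [Nonempty Ω] :
    Nontrivial Ω := by
  by_contra h
  rw [not_nontrivial_iff_subsingleton] at h
  exact hM (eq_bot_iff.2 fun x _ => mem_bot.2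
    (eq_of_smul_eq_smul (α := Ω) fun a => Subsingleton.elim _ _))

theorem coreFree_stabilizer [FaithfulSMul G Ω] (h : MulAction.IsPreprimitive G Ω) {M : Subgroup G}
    (hM : M ≠ ⊥) (ω : Ω) : CoreFree (MulAction.stabilizer G ω) := by
  have : Nonempty Ω := ⟨ω⟩
  have := nontrivial_of_faithful (Ω := Ω) hM
  exact ⟨MulAction.IsPreprimitive.isCoatom_stabilizer_of_isPreprimitive G ω,
    normalCore_stabilizer ω⟩

theorem isPretransitive_of_sup_eq_top [MulAction.IsPretransitive G Ω] {M : Subgroup G} [M.Normal]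
    (ω : Ω) (h : M ⊔ MulAction.stabilizer G ω = ⊤) : MulAction.IsPretransitive M Ω := by
  refine MulAction.IsPretransitive.of_orbit (x₀ := ω) fun a => ?_
  obtain ⟨g, rfl⟩ := MulAction.exists_smul_eq G ω a
  obtain ⟨m, hm, s, hs, rfl⟩ := (Core.mem_sup_of_le_normalizer le_norm_of_normal).1 (h ▸ mem_top g)
  exact ⟨⟨m, hm⟩, by rw [mul_smul, hs]; rfl⟩

end Cfsg.Agent.H2
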