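import Mathlib
import Cfsg.Agent.H2.Schur2
import Cfsg.Agent.Char.Det
import Cfsg.Agent.Char.Expand

/-! Transfer for multipliers, generators, uniqueness of covering groups and the exponent. -/

set_option autoImplicit false
set_option linter.unusedSectionVars false
set_option linter.style.haveILetI false

namespace Cfsg.Agent.H2.Schur

open Cfsg Subgroup Function
open scoped commutatorElement Pointwise

universe u v w

section Transfer

variable {F G : Type*} [Group F] [Group G]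

theorem transfer_of_fix {H : Subgroup F} [H.FiniteIndex] [Fintype (F ⧸ H)] {A : Type*} [CommGroup A]
    (ϕ : H →* A) {r : F} (hr : ∀ g, g⁻¹ * r * g ∈ H) :
    MonoidHom.transfer ϕ r = ∏ q : F ⧸ H, ϕ ⟨q.out⁻¹ * r * q.out, hr _⟩ := by
  rw [MonoidHom.transfer_def ϕ ⟨_, isComplement_range_left Quotient.out_eq'⟩]
  refine Finset.prod_congr (by ext; simp) fun q _ => congrArg ϕ (Subtype.ext ?_)
  have h : r⁻¹ • q = q := by
    rw [inv_smul_eq_iff, ← q.out_eq', MulAction.Quotient.smul_mk, QuotientGroup.eq, smul_eq_mul,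
      ← mul_assoc]
    exact hr _
  simp only [smul_apply_eq_smul_apply_inv_smul, h, smul_eq_mul, mul_assoc,
    IsComplement.leftQuotientEquiv_apply Quotient.out_eq']

theorem exists_cor_tr_aux (f : F →* G) (U : Subgroup G) [(U.comap f).FiniteIndex] :
    ∃ (i : skr (covMap (f.subgroupComap U)) →* skr (covMap f))
      (t : skr (covMap f) →* skr (covMap (f.subgroupComap U))),
      ∀ a, i (t a) = a ^ (U.comap f).index := by
  let H := U.comap f
  let fU := f.subgroupComap U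
  letI := H.fintypeQuotientOfFiniteIndex
  letI : CommGroup (covMap fU).ker := { (inferInstance : Group (covMap fU).ker) with
    mul_comm := fun a b => Subtype.ext (mem_center_iff.1 (covMap_cent _ b.2) a) }
  have hR : ∀ (g : F) (r : f.ker), f (g⁻¹ * r * g) = 1 := fun g r => by
    simp [MonoidHom.mem_ker.1 r.2]
  have hH : ∀ (g : F) (r : f.ker), g⁻¹ * r * g ∈ H := fun g r => by
    rw [mem_comap, hR]
    exact one_mem _
  let ρ : F → f.ker →* (covMap fU).ker := fun g => MonoidHom.mk'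
    (fun r => ⟨covMk fU ⟨_, hH g r⟩, Subtype.ext (hR g r)⟩) fun r r' =>
      Subtype.ext ((congrArg (covMk fU) (Subtype.ext (by simp [mul_assoc]))).trans (map_mul _ _ _))
  have hρ : ∀ g g' : F, (g : F ⧸ H) = g' → ρ g = ρ g' := fun g g' h0 => by
    obtain ⟨h, rfl⟩ : ∃ h : H, g' = g * h := ⟨⟨_, QuotientGroup.eq.1 h0⟩, by simp⟩
    refine MonoidHom.ext fun r => Subtype.ext ?_
    have h1 := mem_center_iff.1 (covMap_cent _ (ρ g r).2) (covMk fU h)⁻¹
    rw [← mul_inv_eq_iff_eq_mul, inv_inv] at h1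
    refine h1.symm.trans ?_
    change (covMk fU h)⁻¹ * covMk fU _ * covMk fU h = covMk fU _
    rw [← map_inv, ← map_mul, ← map_mul]
    exact congrArg _ (Subtype.ext (by simp [mul_assoc]))
  let N : f.ker →* (covMap fU).ker := ∏ q : F ⧸ H, ρ q.out
  have hN : ∀ r, N r = ∏ q : F ⧸ H, ρ q.out r := fun r => MonoidHom.finsetProd_apply _ _ _
  have hN2 : ∀ (x : F) (r r' : f.ker), (r' : F) = x * r * x⁻¹ → N r' = N r := fun x r r' e => by
    rw [hN, hN]
    refine Fintype.prod_equiv (MulAction.toPerm x⁻¹) _ _ fun q => ?_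
    rw [MulAction.toPerm_apply, hρ (x⁻¹ • q).out (x⁻¹ * q.out) (by
      rw [QuotientGroup.out_eq', ← smul_eq_mul, MulAction.Quotient.coe_smul_out])]
    exact Subtype.ext (congrArg (covMk fU) (Subtype.ext (by simp [e, mul_assoc])))
  let η : f.ker →* (covMap f).ker := ((covMk f).comp f.ker.subtype).codRestrict _ fun r => r.2
  have hη : Surjective η := by
    rintro ⟨x, hx⟩
    obtain ⟨x, rfl⟩ := covMk_surjective f x
    exact ⟨⟨x, hx⟩, rfl⟩
  have hk : ⁅f.ker, ⊤⁆ ≤ N.ker.map f.ker.subtype := commutator_le.2 fun r hr x _ => by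
    have h1 : x * r⁻¹ * x⁻¹ ∈ f.ker := by simp [MonoidHom.mem_ker.1 hr]
    refine ⟨⟨r, hr⟩ * ⟨_, h1⟩, ?_, by simp [commutatorElement_def, mul_assoc]⟩
    rw [SetLike.mem_coe, MonoidHom.mem_ker, map_mul, hN2 x ⟨r, hr⟩⁻¹ ⟨_, h1⟩ rfl, map_inv,
      mul_inv_cancel]
  obtain ⟨T, hT⟩ := exists_descend hη N fun r hr => by
    obtain ⟨r', h1, h2⟩ := hk ((QuotientGroup.eq_one_iff _).1 (congrArg Subtype.val hr))
    exact Subtype.ext h2 ▸ h1
  have hT' : ∀ r, T (η r) = N r := DFunLike.congr_fun hT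
  let j : Cov fU →* Cov f := covLift fU ((covMk f).comp H.subtype) fun x hx =>
    covMap_cent f (congrArg Subtype.val hx)
  have hj : ∀ x, covMap fU x = 1 → covMap f (j x) = 1 := fun x hx => by
    obtain ⟨x, rfl⟩ := covMk_surjective fU x
    exact congrArg Subtype.val hx
  have hc : ∀ a : skr (covMap f), (T ⟨a, a.2.1⟩ : Cov fU) ∈ skr (covMap fU) := fun a => by
    refine ⟨(T _).2, ?_⟩
    obtain ⟨r, hr⟩ := hη ⟨a, a.2.1⟩
    have h1 : (r : F) ∈ commutator F := by
      have h2 := a.2.2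
      rw [← ker_covAb, ← congrArg Subtype.val hr] at h2
      exact (QuotientGroup.eq_one_iff _).1 h2
    have h3 := Abelianization.commutator_subset_ker
      (MonoidHom.transfer (Abelianization.of (G := H))) h1
    rw [MonoidHom.mem_ker, transfer_of_fix _ fun g => hH g r] at h3
    rw [← ker_covAb, ← hr, hT', hN]
    exact (map_prod ((covAb fU).comp (covMap fU).ker.subtype) _ _).trans h3
  refine ⟨skrMap j hj, ((covMap fU).ker.subtype.comp (T.comp (inclusion inf_le_left))).codRestrict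
    _ hc, fun a => Subtype.ext ?_⟩
  obtain ⟨r, hr⟩ := hη ⟨a, a.2.1⟩
  letI : CommGroup (covMap f).ker := { (inferInstance : Group (covMap f).ker) with
    mul_comm := fun a b => Subtype.ext (mem_center_iff.1 (covMap_cent _ b.2) a) }
  let j' : (covMap fU).ker →* (covMap f).ker :=
    (j.comp (covMap fU).ker.subtype).codRestrict _ fun x => hj x x.2
  have h1 : ∀ g, j' (ρ g r) = η r := fun g => Subtype.ext <| by
    change covMk f (g⁻¹ * r * g) = covMk f r
    rw [map_mul, map_mul, mul_assoc, ← mem_center_iff.1 (covMap_cent f (x := covMk f r) r.2),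
      map_inv, inv_mul_cancel_left]
  change (j' (T ⟨a, a.2.1⟩) : Cov f) = ((⟨a, a.2.1⟩ : (covMap f).ker) ^ H.index :)
  rw [← hr, hT', hN, map_prod, Finset.prod_congr rfl fun q _ => h1 q.out, Finset.prod_const,
    Finset.card_univ, ← Nat.card_eq_fintype_card]
  rfl

/-- Corestriction and transfer. -/
theorem exists_cor_tr [Finite G] (U : Subgroup G) {A B : Type*} [CommGroup A] [CommGroup B]
    (hA : HasSchurMultiplier G A) (hB : HasSchurMultiplier U B) :
    ∃ (i : B →* A) (t : A →* B), ∀ a, i (t a) = a ^ U.index := by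
  have h := U.index_comap_of_surjective (pres_surjective (Q := G))
  have : (U.comap (pres G)).FiniteIndex := ⟨h ▸ U.index_ne_zero_of_finite⟩
  obtain ⟨i, t, hit⟩ := exists_cor_tr_aux (pres G) U
  obtain ⟨eA⟩ := (has_iff pres_surjective).1 hA
  obtain ⟨eB⟩ := (has_iff ((pres G).subgroupComap_surjective_of_surjective U pres_surjective)).1 hB
  refine ⟨eA.toMonoidHom.comp (i.comp eB.symm.toMonoidHom),
    eB.toMonoidHom.comp (t.comp eA.symm.toMonoidHom), fun a => ?_⟩
  simp [hit, h]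

/-- A quotient of a finite abelian group is isomorphic to a subgroup. -/
theorem exists_injective_of_surjective {D P : Type*} [CommGroup D] [CommGroup P] [Finite D]
    (φ : D →* P) (hφ : Surjective φ) : ∃ ψ : P →* D, Injective ψ := by
  have := Finite.of_surjective φ hφ
  obtain ⟨e⟩ := CommGroup.monoidHom_mulEquiv_of_hasEnoughRootsOfUnity D ℂ
  obtain ⟨e'⟩ := CommGroup.monoidHom_mulEquiv_of_hasEnoughRootsOfUnity P ℂ
  exact ⟨e.toMonoidHom.comp ((MonoidHom.compHom.flip φ).comp e'.symm.toMonoidHom),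
    fun a b h => e'.symm.injective ((MonoidHom.cancel_right hφ).1 (e.injective h))⟩

end Transfer

section Split

variable {Q : Type*} [Group Q] {E : Type*} [Group E]

/-- Covering groups from complements. -/
theorem cover_of_compl [Finite Q] {π : E →* Q} (hπ : CExt π) (S : Subgroup E) [S.Normal]
    (hS : S ≤ π.ker) (h1 : S ⊓ commutator E = ⊥) (h2 : S ⊔ skr π = π.ker) :
    Finite (E ⧸ S) ∧ IsStemExtension (QuotientGroup.lift S π hS) ∧
      Nonempty (skr π ≃* (QuotientGroup.lift S π hS).ker) := by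
  have h5 := stem_quotient hπ S hS h2
  obtain ⟨e⟩ := skr_equiv_ker hπ.surj h5 (η := QuotientGroup.mk' S) rfl (by
    rw [QuotientGroup.ker_mk', eq_bot_iff, ← h1]
    exact inf_le_inf_left _ inf_le_right)
  have := finite_skr hπ
  have := Finite.of_equiv _ e.toEquiv
  exact ⟨finite_of_ker (QuotientGroup.lift S π hS), h5, ⟨e⟩⟩

theorem exists_decomp {π : E →* Q} (hπ : CExt π) {S : Subgroup E} (h2 : S ⊔ skr π = π.ker) {x : E}
    (hx : π x ∈ commutator Q) : ∃ s ∈ S, ∃ c ∈ commutator E, x = s * c := by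
  rw [← map_commutator_eq (ξ := MonoidHom.id Q) (by simp) (η := π) hπ.surj] at hx
  obtain ⟨c, hc, e⟩ := hx
  obtain ⟨z, -, hz, rfl⟩ := exists_central_of_map_eq hπ.cent e
  have hS : S ≤ center E := (le_sup_left.trans h2.le).trans hπ.cent
  have := normal_of_le_center hS
  have hz' : z ∈ (S : Set E) * (skr π : Set E) := by
    rw [← normal_mul, h2]
    exact hz
  obtain ⟨s, hs, m, hm, rfl⟩ := hz'
  exact ⟨s, hs, c * m, mul_mem hc hm.2, by
    rw [← mul_assoc, mem_center_iff.1 (hS hs), mul_assoc]⟩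

theorem exists_extend_coprime {Z : Type*} [CommGroup Z] [Finite Z] (S : Subgroup E)
    (hS : S ⊓ commutator E = ⊥) {k : ℕ} (hk : (Nat.card Z).Coprime k)
    (h : ∀ x : E, ∃ s ∈ S, ∃ c ∈ commutator E, x ^ k = s * c) (μ : S →* Z) :
    ∃ μ' : E →* Z, ∀ x : S, μ' x = μ x := by
  let f : S →* Abelianization E := Abelianization.of.comp S.subtype
  have hf : Injective f := (injective_iff_map_eq_one _).2 fun x hx =>
    Subtype.ext (mem_bot.1 (hS ▸ mem_inf.2 ⟨x.2, (QuotientGroup.eq_one_iff _).1 hx⟩))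
  have h1 : ∀ x : E, (powMonoidHom k).comp Abelianization.of x ∈ f.range := fun x => by
    obtain ⟨s, hs, c, hc, e⟩ := h x
    refine ⟨⟨s, hs⟩, ?_⟩
    change Abelianization.of s = Abelianization.of x ^ k
    rw [← map_pow, e, map_mul, show Abelianization.of c = 1 from (QuotientGroup.eq_one_iff _).2 hc,
      mul_one]
  let e : Z ≃* Z := MulEquiv.ofBijective (powMonoidHom k) (powCoprime hk).bijective
  refine ⟨e.symm.toMonoidHom.comp (μ.comp ((MonoidHom.ofInjective hf).symm.toMonoidHom.comp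
    (MonoidHom.codRestrict _ _ h1))), fun x => e.symm_apply_eq.2 ?_⟩
  change μ _ = μ x ^ k
  rw [← map_pow]
  exact congrArg μ ((MulEquiv.symm_apply_eq (MonoidHom.ofInjective hf)).2
    (Subtype.ext (map_pow f x k).symm))

theorem pow_mem_commutator [Finite Q] (q : Q) : q ^ Nat.card (Abelianization Q) ∈ commutator Q := by
  rw [← Abelianization.ker_of, MonoidHom.mem_ker, map_pow, pow_card_eq_one']

theorem exists_coord {L : Type*} [AddCommGroup L] [Module.Free ℤ L] [Module.Finite ℤ L] (p : ℤ)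
    (y : L) (h : ∀ y', y ≠ p • y') : ∃ φ : L →ₗ[ℤ] ℤ, ¬ p ∣ φ y := by
  by_contra h1
  push Not at h1
  let b := Module.finBasis ℤ L
  choose c hc using fun i => h1 (b.coord i)
  refine h (b.equivFun.symm c) (b.equivFun.injective ?_)
  rw [map_smul, LinearEquiv.apply_symm_apply]
  exact funext hc

end Split

section Unique

variable {Q : Type u} [Group Q] [Finite Q] {A : Type*} [CommGroup A]

theorem equiv_of_coprime (hA : HasSchurMultiplier Q A)
    (hc : (Nat.card (Abelianization Q)).Coprime (Nat.card A)) {Γ₁ Γ₂ : Type*} [Group Γ₁] [Group Γ₂]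
    {σ₁ : Γ₁ →* Q} {σ₂ : Γ₂ →* Q} (h₁ : IsStemExtension σ₁) (h₂ : IsStemExtension σ₂)
    (e₁ : σ₁.ker ≃* A) (e₂ : σ₂.ker ≃* A) : ∃ e : Γ₁ ≃* Γ₂, σ₂.comp e.toMonoidHom = σ₁ := by
  have hs := cext_cov (pres_surjective (Q := Q))
  obtain ⟨η₁, hη₁⟩ := exists_lift_id (pres Q) (cext_of_stem h₁)
  obtain ⟨η₂, hη₂⟩ := exists_lift_id (pres Q) (cext_of_stem h₂)
  have := finite_of_has hA
  have := Finite.of_equiv _ e₁.symm.toEquiv
  have := Finite.of_equiv _ e₂.symm.toEquiv
  have := finite_of_ker σ₁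
  letI : CommGroup σ₂.ker := { (inferInstance : Group σ₂.ker) with
    mul_comm := fun a b => Subtype.ext (mem_center_iff.1 (h₂.2.1 b.2) a) }
  have hk : ∀ x : η₁.ker, η₂ x ∈ σ₂.ker := fun x =>
    (DFunLike.congr_fun hη₂ x.1).trans (ker_le_of_comp hη₁ x.2)
  obtain ⟨μ, hμ⟩ := exists_extend_coprime η₁.ker (inj_of_cover hA hs h₁ e₁ hη₁)
    (Nat.card_congr e₂.toEquiv ▸ hc.symm) (fun x => exists_decomp hs (ker_sup_skr hs.surj h₁ hη₁)
      (by rw [map_pow]; exact pow_mem_commutator _)) ((η₂.comp η₁.ker.subtype).codRestrict _ hk)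
  obtain ⟨β, hβ⟩ := exists_descend (surjective_of_stem h₁ (hη₁ ▸ hs.surj))
    (twist η₂ ((inclusion h₂.2.1).comp μ)) fun x hx => by
      change η₂ x * (μ (⟨x, hx⟩ : η₁.ker) : Γ₂)⁻¹ = 1
      rw [hμ]
      exact mul_inv_cancel _
  have h3 : σ₂.comp β = σ₁ := (MonoidHom.cancel_right (surjective_of_stem h₁ (hη₁ ▸ hs.surj))).1 <| by
    rw [MonoidHom.comp_assoc, hβ, hη₁, ← hη₂]
    refine MonoidHom.ext fun x => ?_
    change σ₂ (η₂ x * (μ x : Γ₂)⁻¹) = σ₂ (η₂ x)
    rw [map_mul, map_inv, MonoidHom.mem_ker.1 (μ x).2, inv_one, mul_one]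
  refine ⟨MulEquiv.ofBijective β ((Nat.bijective_iff_surjective_and_card _).2
    ⟨surjective_of_stem h₂ (h3 ▸ h₁.1), ?_⟩), h3⟩
  rw [card_eq_of_surjective h₁.1, card_eq_of_surjective h₂.1, Nat.card_congr e₁.toEquiv,
    Nat.card_congr e₂.toEquiv]

theorem exists_not_equiv (hA : HasSchurMultiplier Q A)
    (hc : ¬ (Nat.card (Abelianization Q)).Coprime (Nat.card A)) :
    ∃ (Γ₁ Γ₂ : Type u) (_ : Group Γ₁) (_ : Finite Γ₁) (_ : Group Γ₂) (_ : Finite Γ₂)
      (σ₁ : Γ₁ →* Q) (σ₂ : Γ₂ →* Q), IsStemExtension σ₁ ∧ IsStemExtension σ₂ ∧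
        Nonempty (σ₁.ker ≃* A) ∧ Nonempty (σ₂.ker ≃* A) ∧
          ∀ e : Γ₁ →* Γ₂, σ₂.comp e ≠ σ₁ := by
  have hs := cext_cov (pres_surjective (Q := Q))
  obtain ⟨eA⟩ := (has_iff pres_surjective).1 hA
  obtain ⟨p, hp, hp1, hp2⟩ := Nat.Prime.not_coprime_iff_dvd.1 hc
  have := Fact.mk hp
  have := finite_of_has hA
  obtain ⟨S, hS1, hS2, hS3⟩ := cov_split (pres Q) hs.cent
  have := normal_of_le_center (hS1.trans hs.cent)
  obtain ⟨_, h₁, ⟨e₁⟩⟩ := cover_of_compl hs S hS1 hS2 hS3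
  -- an element of the multiplier that is not a `p`-th power
  obtain ⟨m, hm⟩ : ∃ m : A, ∀ w, w ^ p ≠ m := by
    by_contra h
    push Not at h
    obtain ⟨a, ha⟩ := exists_prime_orderOf_dvd_card' p hp2
    have h1 := (Finite.injective_iff_surjective (f := powMonoidHom p)).2 h
    rw [(injective_iff_map_eq_one _).1 h1 a (ha ▸ pow_orderOf_eq_one a), orderOf_one] at ha
    exact hp.one_lt.ne ha
  -- an element of order `p` in the commutator quotient
  obtain ⟨q, hq⟩ := exists_prime_orderOf_dvd_card' p hp1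
  obtain ⟨q, rfl⟩ : ∃ q', Abelianization.of q' = q := QuotientGroup.mk'_surjective _ q
  obtain ⟨x, rfl⟩ := hs.surj q
  obtain ⟨s, hs', c, hc', e⟩ := exists_decomp hs hS3 (x := x ^ p) (by
    rw [← Abelianization.ker_of, MonoidHom.mem_ker, map_pow, map_pow, ← hq, pow_orderOf_eq_one])
  letI : CommGroup S := { (inferInstance : Group S) with
    mul_comm := fun a b => Subtype.ext (mem_center_iff.1 (hs.cent (hS1 b.2)) a) }
  let φ : Additive S →ₗ[ℤ] Additive (Abelianization (FreeGroup Q)) :=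
    (MonoidHom.toAdditive ((covAb (pres Q)).comp S.subtype)).toIntLinearMap
  have hc1 : covAb _ c = 1 := (ker_covAb _).ge hc'
  obtain ⟨ψ, hψ⟩ := exists_coord p (φ.rangeRestrict (Additive.ofMul ⟨s, hs'⟩)) (by
    rintro ⟨_, y, rfl⟩ h
    have h1 : covAb _ s = covAb _ y.toMul.1 ^ p := by
      rw [← zpow_natCast]
      exact congrArg (fun z : LinearMap.range φ => z.1.toMul) h
    have h2 : (p : ℤ) • Additive.ofMul (covAb _ x) =
        (p : ℤ) • Additive.ofMul (covAb _ y.toMul.1) := by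
      rw [← ofMul_zpow, ← ofMul_zpow, zpow_natCast, zpow_natCast, ← h1, ← map_pow, e, map_mul, hc1,
        mul_one]
    have h3 : x * (y.toMul.1)⁻¹ ∈ commutator _ := by
      rw [← ker_covAb, MonoidHom.mem_ker, map_mul, map_inv, mul_inv_eq_one]
      exact smul_right_injective (Additive (Abelianization (FreeGroup Q)))
        (Int.natCast_ne_zero.2 hp.ne_zero) h2
    have h4 := map_mem_commutator (covMap _) h3
    rw [map_mul, map_inv, MonoidHom.mem_ker.1 (hS1 y.toMul.2), inv_one, mul_one,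
      ← Abelianization.ker_of, MonoidHom.mem_ker] at h4
    rw [h4, orderOf_one] at hq
    exact hp.one_lt.ne hq)
  let lam : S →* A := (zpowersHom A m).comp
    (AddMonoidHom.toMultiplicativeRight (ψ ∘ₗ φ.rangeRestrict).toAddMonoidHom)
  let ι : A →* Cov (pres Q) := (skr _).subtype.comp eA.symm.toMonoidHom
  have hι : ∀ a, ι a ∈ skr (covMap (pres Q)) := fun a => (eA.symm a).2
  let κ : S →* Cov (pres Q) := twist S.subtype ((ι.comp lam).codRestrict _ fun a =>
    hs.cent (hι _).1)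
  have hκ : ∀ y, κ y = y * (ι (lam y))⁻¹ := fun _ => rfl
  have hT1 : κ.range ≤ (covMap (pres Q)).ker := by
    rintro _ ⟨y, rfl⟩
    exact mul_mem (hS1 y.2) (inv_mem (hι _).1)
  have hT2 : κ.range ⊓ commutator _ = ⊥ := eq_bot_iff.2 <| by
    rintro _ ⟨⟨y, rfl⟩, hy⟩
    have h1 : y = 1 := Subtype.ext (mem_bot.1 (hS2 ▸ mem_inf.2 ⟨y.2, by
      simpa [hκ] using mul_mem hy (hι (lam y)).2⟩))
    rw [h1, map_one]
    exact one_mem _
  have hT3 : κ.range ⊔ skr (covMap (pres Q)) = (covMap (pres Q)).ker := by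
    refine le_antisymm (sup_le hT1 inf_le_left) (hS3.ge.trans (sup_le (fun y hy => ?_) le_sup_right))
    rw [← inv_mul_cancel_right y (ι (lam ⟨y, hy⟩))]
    exact mul_mem_sup ⟨⟨y, hy⟩, rfl⟩ (hι _)
  have := normal_of_le_center (hT1.trans hs.cent)
  obtain ⟨_, h₂, ⟨e₂⟩⟩ := cover_of_compl hs κ.range hT1 hT2 hT3
  refine ⟨_, _, inferInstance, inferInstance, inferInstance, inferInstance, _, _, h₁, h₂,
    ⟨e₁.symm.trans eA⟩, ⟨e₂.symm.trans eA⟩, fun β hβ => ?_⟩
  have h3 : (QuotientGroup.lift κ.range _ hT1).comp (β.comp (QuotientGroup.mk' S)) =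
      (QuotientGroup.lift κ.range _ hT1).comp (QuotientGroup.mk' κ.range) := by
    rw [← MonoidHom.comp_assoc, hβ]
    rfl
  obtain ⟨z, hz, hz', e'⟩ := exists_central_of_map_eq h₂.2.1
    (a := β.comp (QuotientGroup.mk' S) x) (a' := QuotientGroup.mk' κ.range x)
    (DFunLike.congr_fun h3 x)
  obtain ⟨w, hw, rfl⟩ := (map_skr h₂.2.1 hs.surj (η := QuotientGroup.mk' κ.range) rfl).ge
    ((skr_eq_ker h₂).ge hz')
  obtain ⟨w, rfl⟩ : ∃ a, ι a = w := ⟨eA ⟨w, hw⟩, congrArg Subtype.val (eA.symm_apply_apply _)⟩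
  have h4 := congrArg (· ^ p) e'
  simp only [(Commute.mul_pow (mem_center_iff.1 hz _)), ← map_pow, e, map_mul,
    eq_on_commutator h₂.2.1 h3 hc'] at h4
  have h5 : β.comp (QuotientGroup.mk' S) s = 1 := by
    rw [MonoidHom.comp_apply, show QuotientGroup.mk' S s = 1 from
      (QuotientGroup.eq_one_iff _).2 hs', map_one]
  have h6 : QuotientGroup.mk' κ.range s = QuotientGroup.mk' κ.range (ι (lam ⟨s, hs'⟩)) := by
    rw [← mul_inv_eq_one, ← map_inv, ← map_mul]
    exact (QuotientGroup.eq_one_iff _).2 ⟨⟨s, hs'⟩, rfl⟩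
  rw [h5, one_mul, map_pow, map_pow, mem_center_iff.1 (pow_mem hz p), mul_left_inj, h6,
    ← map_pow, ← map_pow, ← mul_inv_eq_one, ← map_inv, ← map_mul, ← map_inv, ← map_mul] at h4
  have h7 : ι (lam ⟨s, hs'⟩ * (w ^ p)⁻¹) = 1 :=
    mem_bot.1 (hT2 ▸ mem_inf.2 ⟨(QuotientGroup.eq_one_iff _).1 h4, (hι _).2⟩)
  have h8 : m ^ ψ (φ.rangeRestrict (Additive.ofMul ⟨s, hs'⟩)) = w ^ p :=
    mul_inv_eq_one.1 ((map_eq_one_iff ι ((subtype_injective _).comp eA.symm.injective)).1 h7)
  obtain ⟨a, b, hab⟩ := ((Nat.prime_iff_prime_int.1 hp).coprime_iff_not_dvd).2 hψ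
  refine hm (m ^ a * w ^ b) ?_
  rw [mul_pow, ← zpow_natCast, ← zpow_natCast, ← zpow_mul, ← zpow_mul, mul_comm b, zpow_mul w,
    zpow_natCast, ← h8, ← zpow_mul, ← zpow_add, mul_comm _ b, hab, zpow_one]

end Unique

section Rank

theorem rank_le_finrank {A V : Type*} [CommGroup A] [Finite A] [AddCommGroup V] [Module.Free ℤ V]
    [Module.Finite ℤ V] (g : V →+ Additive A) (hg : Surjective g) :
    Group.rank A ≤ Module.finrank ℤ V := by
  classical
  let b := Module.finBasis ℤ V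
  let S := Finset.univ.image fun i => (g (b i)).toMul
  refine (Group.rank_le (S := S) (eq_top_iff.2 fun a _ => ?_)).trans
    (Finset.card_image_le.trans (by simp))
  obtain ⟨v, hv⟩ := hg (Additive.ofMul a)
  have : v ∈ ((closure (S : Set A)).toAddSubgroup.comap g).toIntSubmodule := by
    refine (b.span_eq.ge.trans (Submodule.span_le.2 ?_)) Submodule.mem_top
    rintro _ ⟨i, rfl⟩
    exact subset_closure (by simp [S])
  change g v ∈ (closure (S : Set A)).toAddSubgroup at this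
  rwa [hv] at this

theorem finrank_ab (α : Type*) [Fintype α] :
    Module.finrank ℤ (Additive (Abelianization (FreeGroup α))) = Fintype.card α :=
  Module.finrank_eq_card_basis (FreeAbelianGroup.basis α)

theorem rank_le_of_pres {α : Type*} [Fintype α] (rels : Finset (FreeGroup α))
    [Finite (PresentedGroup (rels : Set (FreeGroup α)))] {A : Type*} [CommGroup A] [Finite A]
    (hA : HasSchurMultiplier (PresentedGroup (rels : Set (FreeGroup α))) A) :
    Group.rank A ≤ rels.card - Fintype.card α := by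
  let f := PresentedGroup.mk (rels : Set (FreeGroup α))
  have hs := cext_cov (PresentedGroup.mk_surjective (rels : Set (FreeGroup α)))
  obtain ⟨e⟩ := (has_iff (PresentedGroup.mk_surjective _)).1 hA
  letI : CommGroup (covMap f).ker := { (inferInstance : Group (covMap f).ker) with
    mul_comm := fun a b => Subtype.ext (mem_center_iff.1 (covMap_cent _ b.2) a) }
  let φ : (rels → ℤ) →ₗ[ℤ] Additive (covMap f).ker := Fintype.linearCombination ℤ fun r =>
    Additive.ofMul ⟨covMk f r, PresentedGroup.one_of_mem r.2⟩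
  have hφ : Surjective φ := by
    let T := ((AddSubgroup.toSubgroup' φ.range.toAddSubgroup).map (covMap f).ker.subtype)
    have := normal_of_le_center ((map_subtype_le _ : T ≤ _).trans hs.cent)
    have h1 : normalClosure (rels : Set (FreeGroup α)) ≤ T.comap (covMk f) := by
      classical
      exact normalClosure_le_normal fun r hr => ⟨⟨covMk f r, PresentedGroup.one_of_mem hr⟩,
        ⟨Pi.single ⟨r, hr⟩ 1, by simp [φ]; rfl⟩, rfl⟩
    rintro ⟨x, hx⟩
    obtain ⟨x, rfl⟩ := covMk_surjective f x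
    obtain ⟨y, ⟨v, hv⟩, h2⟩ := h1 (PresentedGroup.mk_eq_one_iff.1 hx)
    exact ⟨v, hv.trans (Subtype.ext h2)⟩
  let ψ : Additive (covMap f).ker →ₗ[ℤ] Additive (Abelianization (FreeGroup α)) :=
    (MonoidHom.toAdditive ((covAb f).comp (covMap f).ker.subtype)).toIntLinearMap
  have h1 : Fintype.card α ≤ Module.finrank ℤ (LinearMap.range (ψ ∘ₗ φ)) := by
    rw [← finrank_ab α]
    refine LinearMap.finrank_le_finrank_of_injective (f := LinearMap.codRestrict _
      (LinearMap.lsmul ℤ _ (Nat.card (PresentedGroup (rels : Set (FreeGroup α))) : ℤ)) fun y => ?_)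
      fun a b h => smul_right_injective _ (Int.natCast_ne_zero.2
        (Nat.card_pos (α := PresentedGroup (rels : Set (FreeGroup α)))).ne') (congrArg Subtype.val h)
    obtain ⟨x, rfl⟩ : ∃ x, Additive.ofMul (Abelianization.of x) = y :=
      QuotientGroup.mk'_surjective _ y.toMul
    obtain ⟨v, hv⟩ := hφ (Additive.ofMul ⟨covMk f x ^ Nat.card (PresentedGroup _), by
      rw [MonoidHom.mem_ker, map_pow, pow_card_eq_one']⟩)
    refine ⟨v, ?_⟩
    rw [LinearMap.comp_apply, hv]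
    rw [LinearMap.lsmul_apply, ← ofMul_zpow, zpow_natCast]
    exact map_pow (covAb f) (covMk f x) _
  have h2 := (LinearMap.ker (ψ ∘ₗ φ)).finrank_quotient_add_finrank
  rw [(ψ ∘ₗ φ).quotKerEquivRange.finrank_eq, Module.finrank_fintype_fun_eq_card,
    Fintype.card_coe] at h2
  have h3 : ∀ v : LinearMap.ker (ψ ∘ₗ φ), ((φ v).toMul : Cov f) ∈ skr (covMap f) := fun v =>
    ⟨(φ v).toMul.2, (ker_covAb f).le v.2⟩
  refine (rank_le_finrank (V := LinearMap.ker (ψ ∘ₗ φ)) (AddMonoidHom.mk'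
    (fun v => Additive.ofMul (e ⟨_, h3 v⟩)) fun v v' => ?_) fun a => ?_).trans (by omega)
  · rw [← ofMul_mul, ← map_mul]
    exact congrArg _ (congrArg e (Subtype.ext (by simp)))
  · obtain ⟨x, hx⟩ := e.surjective a.toMul
    obtain ⟨v, hv⟩ := hφ (Additive.ofMul ⟨x, x.2.1⟩)
    refine ⟨⟨v, ?_⟩, congrArg Additive.ofMul ((congrArg e (Subtype.ext ?_)).trans hx)⟩
    · rw [LinearMap.mem_ker, LinearMap.comp_apply, hv]
      exact (ker_covAb f).ge x.2.2
    · change ((φ v).toMul : Cov f) = x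
      rw [hv]
      rfl

end Rank

section Exponent

theorem orderOf_sq_dvd {Γ : Type*} [Group Γ] [Finite Γ] {Z : Subgroup Γ} (h1 : Z ≤ center Γ)
    (h2 : Z ≤ commutator Γ) (lam : Z →* ℂˣ) : orderOf lam ^ 2 ∣ Z.index := by
  classical
  have := Fintype.ofFinite Z
  have key : ∀ χ : IrrCharacter Γ, ∃ n : ℕ, ∑ z : Z, ((lam z)⁻¹ : ℂˣ) * ((χ : Γ → ℂ) 1 * χ.1 z) =
      Nat.card Z * (orderOf lam ^ 2 * n : ℕ) := fun χ => by
    obtain ⟨μ, hμ⟩ := Char.exists_linear_on_charCenter (Char.irr_isChar χ)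
      (Char.isIrr_one_ne_zero χ.2) Z (h1.trans (Char.center_le_charCenter χ.2))
    obtain ⟨d, -, hd⟩ := Char.isIrr_degree χ.2
    have h3 : ∀ z : Z, ((lam z)⁻¹ : ℂˣ) * ((χ : Γ → ℂ) 1 * χ.1 z) =
        (Units.coeHom ℂ).comp (μ * lam⁻¹) z * d ^ 2 := fun z => by
      rw [← mul_one (z : Γ), hμ, hd]
      simp
      ring
    rw [Finset.sum_congr rfl fun z _ => h3 z, ← Finset.sum_mul, sum_hom_units]
    split_ifs with h
    · obtain rfl : μ = lam := mul_inv_eq_one.1 (MonoidHom.ext fun z =>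
        Units.ext (DFunLike.congr_fun h z))
      obtain ⟨ν, hν⟩ := Char.Det.exists_detHom (Char.irr_isChar χ)
      obtain ⟨c, rfl⟩ : orderOf μ ∣ d := orderOf_dvd_of_pow_eq_one (MonoidHom.ext fun z => by
        have h4 := Char.Det.detChar_of_scalar (Char.irr_isChar χ) hd (μ z).ne_zero (hμ z)
        rw [hν] at h4
        have h5 : ν z = 1 := Abelianization.commutator_subset_ker ν (h2 z.2)
        exact Units.ext (by simpa [h5] using h4.symm))
      exact ⟨c ^ 2, by rw [Nat.card_eq_fintype_card]; push_cast; ring⟩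
    · exact ⟨0, by simp⟩
  choose n hn using key
  have h3 : ∑ z : Z, ((lam z)⁻¹ : ℂˣ) * Char.regChar Γ z = Nat.card Γ := by
    rw [Finset.sum_eq_single 1 (fun z _ hz => by
      rw [Char.regChar_of_ne fun h => hz (Subtype.ext h), mul_zero]) (by simp)]
    simp [Char.regChar_one]
  simp only [← Char.sum_irr_one_mul, Finset.mul_sum] at h3
  rw [Finset.sum_comm, Finset.sum_congr rfl fun χ _ => hn χ, ← Finset.mul_sum, ← Nat.cast_sum,
    ← Finset.mul_sum, ← Z.card_mul_index, ← Nat.cast_mul, Nat.cast_inj] at h3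
  exact ⟨_, (Nat.eq_of_mul_eq_mul_left Nat.card_pos h3).symm⟩

theorem exponent_sq_dvd {Q : Type*} [Group Q] {A : Type*} [CommGroup A]
    (hA : HasSchurMultiplier Q A) : Monoid.exponent A ^ 2 ∣ Nat.card Q := by
  have := finite_of_has hA
  obtain ⟨Γ, _, _, σ, hσ, ⟨e⟩⟩ := hA.1
  obtain ⟨e'⟩ := CommGroup.monoidHom_mulEquiv_of_hasEnoughRootsOfUnity A ℂ
  obtain ⟨a, ha⟩ := Monoid.exists_orderOf_eq_exponent (Monoid.ExponentExists.of_finite (G := A))
  have h1 := orderOf_sq_dvd hσ.2.1 hσ.2.2 (MonoidHom.compHom.flip e.toMonoidHom (e'.symm a))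
  rwa [orderOf_injective _ fun a b h => (MonoidHom.cancel_right e.surjective).1 h,
    e'.symm.orderOf_eq, ha, index_ker, MonoidHom.range_eq_top.2 hσ.1, card_top] at h1

end Exponent

end Cfsg.Agent.H2.Schur
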